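/-
helper728 (task 1919; S5760): the pair lemma modulo a normal subgroup; normal subgroups.
-/
import Mathlib
import Cfsg.Agent.H458.M2.Pair

/-!
# The pair lemma modulo a normal subgroup (helper728)

* `of_pairZ` : the pair lemma of helper458 for `G ⧸ Z`, `Z` any normal subgroup inside `H`;
* `MeetIn.normal` : `MeetIn p` passes to normal subgroups;
* `MeetIn.of_ker` : the same for a homomorphism with normal range.
-/

set_option autoImplicit false

namespace Cfsg.Agent.H728.Meet2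

open Subgroup Cfsg.Agent.H68.MeetB Cfsg.Agent.H458.M2

variable {p : ℕ} [Fact p.Prime]

theorem relIndex_dvd_of_normal_right {Q : Type*} [Group Q] [Finite Q] (H K : Subgroup Q) [K.Normal] :
    H.relIndex K ∣ H.index := by
  obtain ⟨c, hc⟩ := relIndex_dvd_index_of_normal K H
  have h1 : (H ⊓ K).relIndex H * H.index = (H ⊓ K).index := relIndex_mul_index inf_le_left
  have h2 : (H ⊓ K).relIndex K * K.index = (H ⊓ K).index := relIndex_mul_index inf_le_right
  rw [inf_relIndex_left] at h1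
  rw [inf_relIndex_right, hc] at h2
  have h3 : K.relIndex H ≠ 0 := by
    intro h0
    rw [h0, zero_mul] at hc
    exact index_ne_zero_of_finite hc
  refine ⟨c, Nat.eq_of_mul_eq_mul_left (Nat.pos_of_ne_zero h3) ?_⟩
  rw [h1, ← h2]
  ring

/-- `MeetIn p` passes to normal subgroups -/
theorem MeetIn.normal {Q : Type*} [Group Q] [Finite Q] (h : MeetIn p Q) (K : Subgroup Q) [K.Normal] :
    MeetIn p K := by
  obtain ⟨P⟩ : Nonempty (Sylow p Q) := inferInstance
  obtain ⟨x, hx⟩ := h P P.isPGroup'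
  let P' : Subgroup Q := (P : Subgroup Q).comap (MulAut.conj x).toMonoidHom
  have hP' : ∀ y, y ∈ P' ↔ x * y * x⁻¹ ∈ (P : Subgroup Q) := fun y => Iff.rfl
  have hiP' : P'.index = (P : Subgroup Q).index :=
    Subgroup.index_comap_of_surjective _ (MulAut.conj x).surjective
  let S₁ : Sylow p K := IsPGroup.toSylow (P := (P : Subgroup Q).subgroupOf K)
    (P.isPGroup'.comap_of_injective _ K.subtype_injective)
    fun h1 => P.not_dvd_index (h1.trans (relIndex_dvd_of_normal_right (P : Subgroup Q) K))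
  let S₂ : Sylow p K := IsPGroup.toSylow (P := P'.subgroupOf K)
    ((P.isPGroup'.comap_of_injective _ (MulAut.conj x).injective).comap_of_injective _ K.subtype_injective)
    fun h1 => P.not_dvd_index (hiP' ▸ h1.trans (relIndex_dvd_of_normal_right P' K))
  obtain ⟨g, hg⟩ := MulAction.exists_smul_eq K S₁ S₂
  refine MeetIn.of_one (S₁ : Subgroup K) S₁.isPGroup' S₁.not_dvd_index ⟨g⁻¹, fun y hy hy' => ?_⟩
  rw [inv_inv] at hy'
  have h1 : y ∈ S₂ := by
    rw [← hg, ← SetLike.mem_coe, Sylow.coe_smul]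
    refine ⟨g⁻¹ * y * g, hy', ?_⟩
    simp [MulAut.smul_def, MulAut.conj_apply, mul_assoc]
  have h2 : x * (y : Q) * x⁻¹ ∈ (P : Subgroup Q) := h1
  exact Subtype.ext (hx y hy h2)

theorem MeetIn.of_ker {Q S : Type*} [Group Q] [Finite Q] [Group S] (h : MeetIn p Q) (f : S →* Q)
    (hf : f.range.Normal) {Z : Subgroup S} [Z.Normal] (hZ : f.ker = Z) : MeetIn p (S ⧸ Z) := by
  subst hZ
  exact (MeetIn.normal h f.range).congr (QuotientGroup.quotientKerEquivRange f).symm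

theorem exists_lift {G Q : Type*} [Group G] [Finite G] [Group Q] {f : G →* Q} (hf : Function.Surjective f)
    (hQ : IsPGroup p Q) : ∃ R : Subgroup G, IsPGroup p R ∧ R.map f = ⊤ := by
  have : Finite Q := Finite.of_surjective f hf
  obtain ⟨S⟩ : Nonempty (Sylow p G) := inferInstance
  refine ⟨S, S.isPGroup', ?_⟩
  obtain ⟨n, hn⟩ := hQ.index ((S : Subgroup G).map f)
  have h1 := Subgroup.index_map_dvd (S : Subgroup G) hf
  rcases Nat.eq_zero_or_pos n with h0 | h0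
  · rw [h0, pow_zero] at hn
    exact Subgroup.index_eq_one.1 hn
  · exact absurd ((hn ▸ dvd_pow_self p h0.ne').trans h1) S.not_dvd_index

/-- **The pair lemma for `G ⧸ Z`.** -/
theorem of_pairZ {G : Type*} [Group G] [Finite G] {Z : Subgroup G} [Z.Normal] {H N : Subgroup G}
    (hi : ¬ p ∣ H.index) (hZ : Z ≤ H) (x : G)
    (hN : ∀ n ∈ N, n ∈ H ∧ x * n * x⁻¹ ∈ H)
    (hN1 : ∀ n ∈ N, ∀ y ∈ H, x * y * x⁻¹ ∈ H → y * n * y⁻¹ ∈ N)
    (hN2 : ∀ n ∈ N, ∀ k, n ^ p ^ k ∈ Z → n = 1)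
    (hu : ∀ R : Subgroup G, IsPGroup p R → (∀ y ∈ R, y ∈ H ∧ x * y * x⁻¹ ∈ H) →
      ∃ u ∈ N, ∀ y ∈ R, u * y = y * u → y ∈ Z) : MeetIn p (G ⧸ Z) := by
  let π := QuotientGroup.mk' Z
  have hπ : Function.Surjective π := QuotientGroup.mk'_surjective Z
  have hπ1 : ∀ g, π g = 1 ↔ g ∈ Z := fun g => QuotientGroup.eq_one_iff g
  have hlift : ∀ g, π g ∈ H.map π → g ∈ H := by
    rintro g ⟨h, hh, he⟩
    have h1 : h⁻¹ * g ∈ Z := by
      rw [← hπ1, map_mul, map_inv, he, inv_mul_cancel]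
    have h2 := H.mul_mem hh (hZ h1)
    rwa [mul_inv_cancel_left] at h2
  refine MeetIn.congr (QuotientGroup.quotientBot (G := G ⧸ Z)) (of_pair (Z := (⊥ : Subgroup (G ⧸ Z))) (p := p)
    IsPGroup.of_bot (H := H.map π) (N := N.map π) ?_ (π x)⁻¹ ?_ ?_ ?_ ?_)
  · exact fun h1 => hi (h1.trans (Subgroup.index_map_dvd H hπ))
  · rintro _ ⟨n, hn, rfl⟩
    rw [inv_inv, ← map_inv, ← map_mul, ← map_mul]
    exact ⟨mem_map_of_mem π (hN n hn).1, mem_map_of_mem π (hN n hn).2⟩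
  · rintro _ ⟨n, hn, rfl⟩ _ ⟨y, hy, rfl⟩ hxy
    rw [inv_inv, ← map_inv, ← map_mul, ← map_mul] at hxy
    rw [← map_inv, ← map_mul, ← map_mul]
    exact mem_map_of_mem π (hN1 n hn y hy (hlift _ hxy))
  · rintro _ ⟨n, hn, rfl⟩ k hk
    rw [← map_pow, hπ1] at hk
    rw [hN2 n hn k hk, map_one]
  · intro R' hR' hD
    let R₀ : Subgroup G := R'.comap π
    let f : R₀ →* R' := (π.comp R₀.subtype).codRestrict R' fun y => y.2
    have hf : Function.Surjective f := by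
      rintro ⟨r, hr⟩
      obtain ⟨g, rfl⟩ := hπ r
      exact ⟨⟨g, hr⟩, rfl⟩
    obtain ⟨R₁, hR₁, hR₁'⟩ := exists_lift hf hR'
    obtain ⟨u, hu1, hu2⟩ := hu (R₁.map R₀.subtype) (hR₁.map _) (by
      rintro _ ⟨y, hy, rfl⟩
      have h1 := hD (π (y : G)) y.2
      rw [inv_inv, ← map_inv, ← map_mul, ← map_mul] at h1
      exact ⟨hlift _ h1.1, hlift _ h1.2⟩)
    refine ⟨π u, mem_map_of_mem π hu1, fun r hr hur => ?_⟩
    have h2 : (⟨r, hr⟩ : R') ∈ R₁.map f := by rw [hR₁']; trivial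
    obtain ⟨y, hy, hyr⟩ := h2
    have h3 : π (y : G) = r := congrArg Subtype.val hyr
    subst h3
    have hyD := hD (π (y : G)) hr
    rw [inv_inv, ← map_inv, ← map_mul, ← map_mul] at hyD
    have h4 : y⁻¹ * u⁻¹ * (y : G) * u ∈ N := by
      have h5 := hN1 u⁻¹ (N.inv_mem hu1) (y : G)⁻¹ (H.inv_mem (hlift _ hyD.1)) (by
        have h6 := H.inv_mem (hlift _ hyD.2)
        have h7 : (x * (y : G) * x⁻¹)⁻¹ = x * (y : G)⁻¹ * x⁻¹ := by group
        rwa [h7] at h6)
      rw [inv_inv] at h5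
      exact N.mul_mem h5 hu1
    have h5 : y⁻¹ * u⁻¹ * (y : G) * u ∈ Z := by
      rw [← hπ1]
      simp only [map_mul, map_inv]
      have h6 : (π (y : G))⁻¹ * (π u)⁻¹ * π (y : G) * π u = (π u * π (y : G))⁻¹ * (π (y : G) * π u) := by group
      have h8 : π ((y⁻¹ : R₀) : G) = (π (y : G))⁻¹ := map_inv _ _
      rw [h8, h6, hur, inv_mul_cancel]
    have h6 : y⁻¹ * u⁻¹ * (y : G) * u = 1 := hN2 _ h4 0 (by rw [pow_zero, pow_one]; exact h5)
    have h7 : (y : G) ∈ Z := hu2 y ⟨y, hy, rfl⟩ (by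
      have h8 : (u * (y : G)) * (y⁻¹ * u⁻¹ * (y : G) * u) = (y : G) * u := by
        push_cast
        group
      rw [← h8, h6, mul_one])
    rw [Subgroup.mem_bot]
    exact (hπ1 _).2 h7

end Cfsg.Agent.H728.Meet2
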