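/-
helper728 (task 1918; S5760): block monomial groups and conjugates of Sylow 2-subgroups.
-/
import Mathlib
import Cfsg.Agent.H68.MeetBase

/-!
# Block monomial maps (helper728)

`V = (I → W) × U`.

* `bm σ A D` : `(u, w) ↦ (k ↦ A k (u (σ⁻¹ k)), D w)`;
* `BM` : the group of these maps; `card_BM` : its order;
* `bl M c c'` : the linear map with the blocks `M`, `c`, `c'`, and 1 in the last place;
* `rel_of_comm` : the relations between the blocks when `x y = y' x`, `x` a block matrix, `y`, `y'` monomial.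
-/

set_option autoImplicit false

namespace Cfsg.Agent.H728.Meet2

open Equiv Module

section frame

variable {F : Type*} [Field F] {I : Type*} {W U : Type*} [AddCommGroup W] [Module F W] [AddCommGroup U] [Module F U]

/-- the block monomial map -/
def bm (σ : Perm I) (A : I → (W ≃ₗ[F] W)) (D : U ≃ₗ[F] U) : ((I → W) × U) ≃ₗ[F] ((I → W) × U) where
  toFun v := (fun k => A k (v.1 (σ.symm k)), D v.2)
  invFun v := (fun k => (A (σ k)).symm (v.1 (σ k)), D.symm v.2)
  left_inv v := Prod.ext (funext fun k => by simp) (by simp)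
  right_inv v := Prod.ext (funext fun k => by simp) (by simp)
  map_add' u v := Prod.ext (funext fun k => by simp) (by simp)
  map_smul' a v := Prod.ext (funext fun k => by simp) (by simp)

theorem bm_fst (σ : Perm I) (A : I → (W ≃ₗ[F] W)) (D : U ≃ₗ[F] U) (v : (I → W) × U) (k : I) :
    (bm σ A D v).1 k = A k (v.1 (σ.symm k)) := rfl

theorem bm_snd (σ : Perm I) (A : I → (W ≃ₗ[F] W)) (D : U ≃ₗ[F] U) (v : (I → W) × U) :
    (bm σ A D v).2 = D v.2 := rfl

theorem bm_mul (σ σ' : Perm I) (A A' : I → (W ≃ₗ[F] W)) (D D' : U ≃ₗ[F] U) :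
    bm σ A D * bm σ' A' D' = bm (σ * σ') (fun k => A k * A' (σ.symm k)) (D * D') :=
  LinearEquiv.ext fun _ => rfl

theorem bm_one : bm (F := F) (1 : Perm I) (1 : I → (W ≃ₗ[F] W)) (1 : U ≃ₗ[F] U) = 1 :=
  LinearEquiv.ext fun _ => rfl

/-- the block monomial group -/
def BM (F I W U : Type*) [Field F] [AddCommGroup W] [Module F W] [AddCommGroup U] [Module F U] :
    Subgroup (((I → W) × U) ≃ₗ[F] ((I → W) × U)) where
  carrier := {g | ∃ σ A D, g = bm σ A D}
  mul_mem' := by
    rintro _ _ ⟨σ, A, D, rfl⟩ ⟨σ', A', D', rfl⟩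
    exact ⟨_, _, _, bm_mul σ σ' A A' D D'⟩
  one_mem' := ⟨1, 1, 1, bm_one.symm⟩
  inv_mem' := by
    rintro _ ⟨σ, A, D, rfl⟩
    refine ⟨σ⁻¹, fun k => (A (σ k))⁻¹, D⁻¹, ?_⟩
    rw [inv_eq_iff_mul_eq_one, bm_mul, ← bm_one]
    congr 1
    · simp
    · funext k
      simp
    · simp

theorem mem_BM {g : ((I → W) × U) ≃ₗ[F] ((I → W) × U)} : g ∈ BM F I W U ↔ ∃ σ A D, g = bm σ A D := Iff.rfl

theorem bm_injective [Nontrivial W] {σ σ' : Perm I} {A A' : I → (W ≃ₗ[F] W)} {D D' : U ≃ₗ[F] U}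
    (h : bm σ A D = bm σ' A' D') : σ = σ' ∧ A = A' ∧ D = D' := by
  classical
  obtain ⟨w, hw⟩ := exists_ne (0 : W)
  have key : ∀ (u : I → W) (k : I), A k (u (σ.symm k)) = A' k (u (σ'.symm k)) := fun u k =>
    congrArg (fun g : ((I → W) × U) ≃ₗ[F] ((I → W) × U) => (g (u, 0)).1 k) h
  have hσ : σ = σ' := by
    have h2 : σ.symm = σ'.symm := by
      ext1 k
      have h1 := key (Pi.single (σ.symm k) w) k
      rw [Pi.single_eq_same] at h1
      by_contra hne
      rw [Pi.single_eq_of_ne (Ne.symm hne), map_zero] at h1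
      exact hw ((A k).map_eq_zero_iff.1 h1)
    rw [← Equiv.symm_symm σ, h2, Equiv.symm_symm]
  subst hσ
  refine ⟨rfl, ?_, ?_⟩
  · funext k
    exact LinearEquiv.ext fun a => key (fun _ => a) k
  · exact LinearEquiv.ext fun a =>
      congrArg (fun g : ((I → W) × U) ≃ₗ[F] ((I → W) × U) => (g (0, a)).2) h

theorem card_BM [Nontrivial W] [Fintype I] [Finite (W ≃ₗ[F] W)] :
    Nat.card (BM F I W U) = (Fintype.card I).factorial * Nat.card (W ≃ₗ[F] W) ^ Fintype.card I *
      Nat.card (U ≃ₗ[F] U) := by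
  classical
  let e : (Perm I × (I → (W ≃ₗ[F] W))) × (U ≃ₗ[F] U) ≃ BM F I W U :=
    Equiv.ofBijective (fun x => ⟨bm x.1.1 x.1.2 x.2, x.1.1, x.1.2, x.2, rfl⟩) ⟨by
      rintro ⟨⟨σ, A⟩, D⟩ ⟨⟨σ', A'⟩, D'⟩ h
      obtain ⟨rfl, rfl, rfl⟩ := bm_injective (congrArg Subtype.val h)
      rfl, by
      rintro ⟨_, σ, A, D, rfl⟩
      exact ⟨((σ, A), D), rfl⟩⟩
  rw [← Nat.card_congr e, Nat.card_prod, Nat.card_prod, Nat.card_perm, Nat.card_eq_fintype_card (α := I),
    Nat.card_fun, Nat.card_eq_fintype_card (α := I)]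

/-! ### Block matrices -/

variable [Fintype I]

/-- the linear map with the blocks `M k j`, `c k`, `c' j`, and the identity in the last place -/
def bl (M : I → I → (W →ₗ[F] W)) (c : I → (U →ₗ[F] W)) (c' : I → (W →ₗ[F] U)) :
    ((I → W) × U) →ₗ[F] ((I → W) × U) where
  toFun v := (fun k => (∑ j, M k j (v.1 j)) + c k v.2, v.2 + ∑ j, c' j (v.1 j))
  map_add' u v := by
    refine Prod.ext (funext fun k => ?_) ?_
    · simp only [Prod.fst_add, Prod.snd_add, Pi.add_apply, map_add, Finset.sum_add_distrib]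
      abel
    · simp only [Prod.fst_add, Prod.snd_add, Pi.add_apply, map_add, Finset.sum_add_distrib]
      abel
  map_smul' a v := by
    refine Prod.ext (funext fun k => ?_) ?_
    · simp only [Prod.smul_fst, Prod.smul_snd, Pi.smul_apply, map_smul, RingHom.id_apply, smul_add,
        Finset.smul_sum]
    · simp only [Prod.smul_fst, Prod.smul_snd, Pi.smul_apply, map_smul, RingHom.id_apply, smul_add,
        Finset.smul_sum]

theorem bl_fst (M : I → I → (W →ₗ[F] W)) (c : I → (U →ₗ[F] W)) (c' : I → (W →ₗ[F] U)) (v : (I → W) × U) (k : I) :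
    (bl M c c' v).1 k = (∑ j, M k j (v.1 j)) + c k v.2 := rfl

theorem bl_snd (M : I → I → (W →ₗ[F] W)) (c : I → (U →ₗ[F] W)) (c' : I → (W →ₗ[F] U)) (v : (I → W) × U) :
    (bl M c c' v).2 = v.2 + ∑ j, c' j (v.1 j) := rfl

variable [DecidableEq I]

theorem bl_single (M : I → I → (W →ₗ[F] W)) (c : I → (U →ₗ[F] W)) (c' : I → (W →ₗ[F] U)) (j : I) (a : W) :
    bl M c c' (Pi.single j a, 0) = (fun k => M k j a, c' j a) := by
  refine Prod.ext (funext fun k => ?_) ?_
  · rw [bl_fst, map_zero, add_zero, Finset.sum_eq_single j]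
    · change M k j ((Pi.single j a : I → W) j) = M k j a
      rw [Pi.single_eq_same]
    · intro l _ hl
      change M k l ((Pi.single j a : I → W) l) = 0
      rw [Pi.single_eq_of_ne hl, map_zero]
    · intro h; exact absurd (Finset.mem_univ _) h
  · rw [bl_snd, zero_add, Finset.sum_eq_single j]
    · change c' j ((Pi.single j a : I → W) j) = c' j a
      rw [Pi.single_eq_same]
    · intro l _ hl
      change c' l ((Pi.single j a : I → W) l) = 0
      rw [Pi.single_eq_of_ne hl, map_zero]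
    · intro h; exact absurd (Finset.mem_univ _) h

omit [Fintype I] in
theorem bm_single (σ : Perm I) (A : I → (W ≃ₗ[F] W)) (D : U ≃ₗ[F] U) (j : I) (a : W) :
    bm σ A D (Pi.single j a, 0) = (Pi.single (σ j) (A (σ j) a), 0) := by
  refine Prod.ext (funext fun k => ?_) (map_zero D)
  rw [bm_fst]
  by_cases h : k = σ j
  · subst h
    rw [Equiv.symm_apply_apply]
    change A (σ j) ((Pi.single j a : I → W) j) = (Pi.single (σ j) (A (σ j) a) : I → W) (σ j)
    rw [Pi.single_eq_same, Pi.single_eq_same]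
  · have h2 : σ.symm k ≠ j := fun h3 => h (by rw [← h3, Equiv.apply_symm_apply])
    change A k ((Pi.single j a : I → W) (σ.symm k)) = (Pi.single (σ j) (A (σ j) a) : I → W) k
    rw [Pi.single_eq_of_ne h2, Pi.single_eq_of_ne h, map_zero]

/-- **The relations between the blocks.** -/
theorem rel_of_comm {M : I → I → (W →ₗ[F] W)} {c : I → (U →ₗ[F] W)} {c' : I → (W →ₗ[F] U)}
    {σ τ : Perm I} {A A' : I → (W ≃ₗ[F] W)} {D D' : U ≃ₗ[F] U}
    (h : ∀ v, bl M c c' (bm σ A D v) = bm τ A' D' (bl M c c' v)) :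
    (∀ i j a, M (τ i) (σ j) (A (σ j) a) = A' (τ i) (M i j a)) ∧
    (∀ j a, c' (σ j) (A (σ j) a) = D' (c' j a)) ∧ D = D' ∧
    (∀ k w, c (τ k) (D w) = A' (τ k) (c k w)) := by
  refine ⟨fun i j a => ?_, fun j a => ?_, ?_, fun k w => ?_⟩
  · have h1 := h (Pi.single j a, 0)
    rw [bm_single, bl_single, bl_single] at h1
    have h2 := congrFun (congrArg Prod.fst h1) (τ i)
    rw [bm_fst, Equiv.symm_apply_apply] at h2
    exact h2
  · have h1 := h (Pi.single j a, 0)
    rw [bm_single, bl_single, bl_single] at h1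
    exact congrArg Prod.snd h1
  · refine LinearEquiv.ext fun w => ?_
    have h1 := congrArg Prod.snd (h (0, w))
    rw [bl_snd, bm_snd, bm_snd, bl_snd] at h1
    simpa [bm_fst] using h1
  · have h1 := congrFun (congrArg Prod.fst (h (0, w))) (τ k)
    rw [bl_fst, bm_fst, bm_snd, bl_fst, Equiv.symm_apply_apply] at h1
    simpa [bm_fst] using h1

end frame

end Cfsg.Agent.H728.Meet2
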