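/-
helper728 (task 1918; S5760): the three rigid block patterns.
-/
import Mathlib
import Cfsg.Agent.H728.Meet2.Frame

/-!
# Rigid block matrices (helper728)

`Rig E c₀ N` : `1 + N` is rigid: if `1 + N` maps the block monomial map `y` to a block monomial map, then `y` permutes
no blocks and all its blocks are equal and commute with `E`.

* `rig_tri` : `m ≥ 3` blocks;
* `rig_two` : two blocks;
* `rig_one` : one block and a line;
* `scal_of_rig` : the conclusion for elements of 2-power order.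
-/

set_option autoImplicit false

namespace Cfsg.Agent.H728.Meet2

open Equiv Module

section general

variable {F : Type*} [Field F] {I : Type*} [Fintype I] [DecidableEq I] {W U : Type*} [AddCommGroup W] [Module F W]
  [AddCommGroup U] [Module F U]

/-- rigid nilpotent maps -/
def Rig (E : W →ₗ[F] W) (c₀ : U →ₗ[F] W) (N : ((I → W) × U) →ₗ[F] ((I → W) × U)) : Prop :=
  ∀ (σ τ : Perm I) (A A' : I → (W ≃ₗ[F] W)) (D D' : U ≃ₗ[F] U),
    (∀ v, bm σ A D v + N (bm σ A D v) = bm τ A' D' (v + N v)) →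
    σ = 1 ∧ ∃ A₀ : W ≃ₗ[F] W, (∀ i, A i = A₀) ∧ (∀ a, E (A₀ a) = A₀ (E a)) ∧ ∀ w, c₀ (D w) = A₀ (c₀ w)

end general

/-! ### At least three blocks -/

section tri

variable {F : Type*} [Field F] {W U : Type*} [AddCommGroup W] [Module F W] [AddCommGroup U] [Module F U]
  {m : ℕ} (E : W →ₗ[F] W) (c₀ : U →ₗ[F] W)

/-- upper triangular, all blocks on and above the diagonal invertible -/
def triM (m : ℕ) (i j : Fin m) : W →ₗ[F] W :=
  if i ≤ j then (if i.val = 0 ∧ j.val = 2 then 1 + E else 1) else 0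

/-- the last column -/
def triC (m : ℕ) (i : Fin m) : U →ₗ[F] W := if i.val = 0 then c₀ else 0

theorem triM_diag (i : Fin m) : triM E m i i = 1 := by
  unfold triM
  rw [if_pos le_rfl, if_neg (by omega)]

theorem triM_of_not {i j : Fin m} (h : ¬ i ≤ j) : triM E m i j = 0 := by
  unfold triM
  rw [if_neg h]

theorem triM_one {i j : Fin m} (h : i ≤ j) (h2 : ¬ (i.val = 0 ∧ j.val = 2)) : triM E m i j = 1 := by
  unfold triM
  rw [if_pos h, if_neg h2]

variable {E c₀}

theorem triM_ne (hE : ∀ a, E (E a) = 0) {i j : Fin m} (h : i ≤ j) {a : W} (ha : a ≠ 0) : triM E m i j a ≠ 0 := by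
  unfold triM
  rw [if_pos h]
  split_ifs with h2
  · intro h3
    have h4 : a + E a = 0 := h3
    have h5 : E a = 0 := by
      have h6 := congrArg E h4
      rw [map_add, hE, add_zero, map_zero] at h6
      exact h6
    rw [h5, add_zero] at h4
    exact ha h4
  · exact ha

/-- nilpotency -/
theorem tri_nilp : IsNilpotent (bl (triM E m) (triC c₀ m) (fun _ => (0 : W →ₗ[F] U)) - 1) := by
  refine ⟨m + 1, ?_⟩
  have key : ∀ (r : ℕ) (v : (Fin m → W) × U),
      (((bl (triM E m) (triC c₀ m) (fun _ => (0 : W →ₗ[F] U)) - 1) ^ (r + 1)) v).2 = 0 ∧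
      ∀ k : Fin m, m + 1 ≤ k.val + (r + 1) →
        (((bl (triM E m) (triC c₀ m) (fun _ => (0 : W →ₗ[F] U)) - 1) ^ (r + 1)) v).1 k = 0 := by
    intro r
    have h2 : ∀ v : (Fin m → W) × U, ((bl (triM E m) (triC c₀ m) (fun _ => (0 : W →ₗ[F] U)) - 1) v).2 = 0 := by
      intro v
      change (bl (triM E m) (triC c₀ m) (fun _ => (0 : W →ₗ[F] U)) v).2 - v.2 = 0
      rw [bl_snd]
      simp
    induction r with
    | zero =>
      intro v
      refine ⟨?_, fun k hk => ?_⟩
      · rw [zero_add, pow_one]; exact h2 v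
      · have := k.2
        omega
    | succ r ih =>
      intro v
      obtain ⟨h3, h4⟩ := ih v
      rw [pow_succ']
      refine ⟨h2 _, fun k hk => ?_⟩
      set v' := ((bl (triM E m) (triC c₀ m) (fun _ => (0 : W →ₗ[F] U)) - 1) ^ (r + 1)) v with hv'
      change (bl (triM E m) (triC c₀ m) (fun _ => (0 : W →ₗ[F] U)) v').1 k - v'.1 k = 0
      rw [bl_fst, h3, map_zero, add_zero, Finset.sum_eq_single k, triM_diag]
      · exact sub_self _
      · intro j _ hj
        by_cases h5 : k ≤ j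
        · have h6 : k.val < j.val := lt_of_le_of_ne h5 fun h => hj (Fin.ext h.symm)
          rw [h4 j (by omega), map_zero]
        · rw [triM_of_not E h5]
          rfl
      · intro h; exact absurd (Finset.mem_univ _) h
  apply LinearMap.ext
  intro v
  obtain ⟨h3, h4⟩ := key m v
  exact Prod.ext (funext fun k => h4 k (by omega)) h3

theorem rig_tri [Nontrivial W] (hE : ∀ a, E (E a) = 0) (hm : 3 ≤ m) :
    Rig E c₀ (bl (triM E m) (triC c₀ m) (fun _ => (0 : W →ₗ[F] U)) - 1) := by
  intro σ τ A A' D D' h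
  obtain ⟨R1, -, R3, R4⟩ := rel_of_comm (M := triM E m) (c := triC c₀ m) (c' := fun _ => (0 : W →ₗ[F] U))
    (σ := σ) (τ := τ) (A := A) (A' := A') (D := D) (D' := D') (fun v => by
      have h1 := h v
      rw [LinearMap.sub_apply, LinearMap.sub_apply] at h1
      simpa using h1)
  obtain ⟨a₀, ha₀⟩ := exists_ne (0 : W)
  have hiff : ∀ i j, i ≤ j ↔ τ i ≤ σ j := by
    intro i j
    constructor
    · intro hij
      by_contra hc
      have h1 := R1 i j a₀
      rw [triM_of_not E hc] at h1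
      exact triM_ne hE hij ha₀ ((A' (τ i)).map_eq_zero_iff.1 h1.symm)
    · intro hij
      by_contra hc
      have h1 := R1 i j a₀
      rw [triM_of_not E hc] at h1
      have h2 : (0 : W →ₗ[F] W) a₀ = 0 := rfl
      rw [h2, map_zero] at h1
      exact triM_ne hE hij (fun h3 => ha₀ ((A (σ j)).map_eq_zero_iff.1 h3)) h1
  have hτ : ∀ i, τ i = i := by
    intro i
    have h1 : Finset.Ici (τ i) = (Finset.Ici i).map σ.toEmbedding := by
      ext j
      rw [Finset.mem_Ici, Finset.mem_map]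
      constructor
      · intro hj
        refine ⟨σ.symm j, Finset.mem_Ici.2 ((hiff _ _).2 (by rwa [Equiv.apply_symm_apply])), ?_⟩
        exact Equiv.apply_symm_apply _ _
      · rintro ⟨k, hk, rfl⟩
        exact (hiff _ _).1 (Finset.mem_Ici.1 hk)
    have h2 := congrArg Finset.card h1
    rw [Finset.card_map, Fin.card_Ici, Fin.card_Ici] at h2
    apply Fin.ext
    have h3 := i.2
    have h4 := (τ i).2
    omega
  have hσ : ∀ j, σ j = j := by
    intro j
    have h1 : Finset.Iic (σ j) = (Finset.Iic j).map τ.toEmbedding := by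
      ext i
      rw [Finset.mem_Iic, Finset.mem_map]
      constructor
      · intro hj
        refine ⟨τ.symm i, Finset.mem_Iic.2 ((hiff _ _).2 (by rwa [Equiv.apply_symm_apply])), ?_⟩
        exact Equiv.apply_symm_apply _ _
      · rintro ⟨k, hk, rfl⟩
        exact (hiff _ _).1 (Finset.mem_Iic.1 hk)
    have h2 := congrArg Finset.card h1
    rw [Finset.card_map, Fin.card_Iic, Fin.card_Iic] at h2
    apply Fin.ext
    omega
  have S1 : ∀ i j a, triM E m i j (A j a) = A' i (triM E m i j a) := by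
    intro i j a
    have := R1 i j a
    rwa [hτ, hσ] at this
  have S4 : ∀ k w, triC c₀ m k (D w) = A' k (triC c₀ m k w) := by
    intro k w
    have := R4 k w
    rwa [hτ] at this
  have hAA : ∀ i, A' i = A i := by
    intro i
    refine LinearEquiv.ext fun a => ?_
    have h1 := S1 i i a
    rw [triM_diag] at h1
    exact h1.symm
  have hlt : ∀ i j : Fin m, i ≤ j → ¬ (i.val = 0 ∧ j.val = 2) → A j = A i := by
    intro i j hij h2
    refine LinearEquiv.ext fun a => ?_
    have h1 := S1 i j a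
    rw [triM_one E hij h2, hAA] at h1
    exact h1
  have hall : ∀ i, A i = A ⟨0, by omega⟩ := by
    intro i
    have h1 : A ⟨1, by omega⟩ = A ⟨0, by omega⟩ := hlt _ _ (by rw [Fin.le_def]; simp) (by simp)
    by_cases h0 : i.val = 0
    · congr 1
      exact Fin.ext h0
    · rw [← h1]
      exact hlt ⟨1, by omega⟩ i (by rw [Fin.le_def]; simp only; omega) (by simp)
  refine ⟨Equiv.ext hσ, A ⟨0, by omega⟩, hall, fun a => ?_, fun w => ?_⟩
  · have h1 := S1 ⟨0, by omega⟩ ⟨2, by omega⟩ a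
    unfold triM at h1
    rw [if_pos (by rw [Fin.le_def]; simp), if_pos ⟨rfl, rfl⟩, hAA, hall ⟨2, by omega⟩] at h1
    have h2 : A ⟨0, by omega⟩ a + E (A ⟨0, by omega⟩ a) = A ⟨0, by omega⟩ (a + E a) := h1
    rw [map_add] at h2
    exact add_left_cancel h2
  · have h1 := S4 ⟨0, by omega⟩ w
    unfold triC at h1
    rw [if_pos rfl, hAA] at h1
    exact h1

end tri

/-! ### Two blocks -/

section two

variable {F : Type*} [Field F] {W U : Type*} [AddCommGroup W] [Module F W] [AddCommGroup U] [Module F U]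
  (E : W →ₗ[F] W) (c₀ : U →ₗ[F] W)

/-- the 2 x 2 block matrix with the rows `1 E`, `1 1` -/
def twoM (i j : Fin 2) : W →ₗ[F] W := if i = 0 ∧ j = 1 then E else 1

/-- the last column -/
def twoC (i : Fin 2) : U →ₗ[F] W := if i = 0 then c₀ else 0

variable {E c₀}

theorem two_nilp (hE : ∀ a, E (E a) = 0) (hc : ∀ w, E (c₀ w) = 0) :
    IsNilpotent (bl (twoM E) (twoC c₀) (fun _ => (0 : W →ₗ[F] U)) - 1) := by
  refine ⟨4, ?_⟩
  set N := bl (twoM E) (twoC c₀) (fun _ => (0 : W →ₗ[F] U)) - 1 with hN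
  have h : ∀ v, N v = (![E (v.1 1) + c₀ v.2, v.1 0], 0) := by
    intro v
    change bl (twoM E) (twoC c₀) (fun _ => (0 : W →ₗ[F] U)) v - v = _
    refine Prod.ext (funext fun k => ?_) ?_
    · change (bl (twoM E) (twoC c₀) (fun _ => (0 : W →ₗ[F] U)) v).1 k - v.1 k = _
      rw [bl_fst, Fin.sum_univ_two]
      fin_cases k
      · change (twoM E 0 0 (v.1 0) + twoM E 0 1 (v.1 1)) + twoC c₀ 0 v.2 - v.1 0 = E (v.1 1) + c₀ v.2
        have e1 : twoM E 0 0 = 1 := by unfold twoM; simp
        have e2 : twoM E 0 1 = E := by unfold twoM; simp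
        have e3 : twoC c₀ 0 = c₀ := by unfold twoC; simp
        rw [e1, e2, e3, End.one_apply]
        abel
      · change (twoM E 1 0 (v.1 0) + twoM E 1 1 (v.1 1)) + twoC c₀ 1 v.2 - v.1 1 = v.1 0
        have e1 : twoM E 1 0 = 1 := by unfold twoM; simp
        have e2 : twoM E 1 1 = 1 := by unfold twoM; simp
        have e3 : twoC c₀ 1 = 0 := by unfold twoC; simp
        rw [e1, e2, e3, End.one_apply, End.one_apply, LinearMap.zero_apply]
        abel
    · change (bl (twoM E) (twoC c₀) (fun _ => (0 : W →ₗ[F] U)) v).2 - v.2 = 0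
      rw [bl_snd]
      simp
  apply LinearMap.ext
  intro v
  have e : (N ^ 4) v = N (N (N (N v))) := rfl
  rw [e, h (N (N (N v))), h (N (N v)), h (N v), h v]
  refine Prod.ext (funext fun k => ?_) rfl
  fin_cases k
  · simp [hE]
  · simp [hE, hc]

theorem rig_two [Nontrivial W] {e₁ : W} (he : e₁ ≠ 0) (hEe : E e₁ = 0) :
    Rig E c₀ (bl (twoM E) (twoC c₀) (fun _ => (0 : W →ₗ[F] U)) - 1) := by
  intro σ τ A A' D D' h
  obtain ⟨R1, -, R3, R4⟩ := rel_of_comm (M := twoM E) (c := twoC c₀) (c' := fun _ => (0 : W →ₗ[F] U))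
    (σ := σ) (τ := τ) (A := A) (A' := A') (D := D) (D' := D') (fun v => by
      have h1 := h v
      rw [LinearMap.sub_apply, LinearMap.sub_apply] at h1
      simpa using h1)
  have hne : ∀ i j : Fin 2, ¬ (i = 0 ∧ j = 1) → twoM E i j = 1 := by
    intro i j hij
    unfold twoM
    rw [if_neg hij]
  have h01 : twoM E 0 1 = E := by unfold twoM; simp
  have h1 : τ 0 = 0 ∧ σ 1 = 1 := by
    by_contra hc
    have h2 := R1 0 1 e₁
    rw [h01, hEe, (A' (τ 0)).map_zero, hne _ _ hc] at h2
    exact he ((A (σ 1)).map_eq_zero_iff.1 h2)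
  have hτ : ∀ i, τ i = i := by
    intro i
    by_cases h0 : i = 0
    · rw [h0, h1.1]
    · have h2 : τ i ≠ 0 := fun h3 => h0 (τ.injective (h3.trans h1.1.symm))
      omega
  have hσ : ∀ i, σ i = i := by
    intro i
    by_cases h0 : i = 1
    · rw [h0, h1.2]
    · have h2 : σ i ≠ 1 := fun h3 => h0 (σ.injective (h3.trans h1.2.symm))
      omega
  have S1 : ∀ i j a, twoM E i j (A j a) = A' i (twoM E i j a) := by
    intro i j a
    have := R1 i j a
    rwa [hτ, hσ] at this
  have S4 : ∀ k w, twoC c₀ k (D w) = A' k (twoC c₀ k w) := by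
    intro k w
    have := R4 k w
    rwa [hτ] at this
  have T : ∀ i j : Fin 2, ¬ (i = 0 ∧ j = 1) → A j = A' i := by
    intro i j hij
    refine LinearEquiv.ext fun a => ?_
    have h2 := S1 i j a
    rw [hne i j hij] at h2
    exact h2
  have h00 := T 0 0 (by simp)
  have h10 := T 1 0 (by simp)
  have h11 := T 1 1 (by simp)
  refine ⟨Equiv.ext hσ, A 0, ?_, fun a => ?_, fun w => ?_⟩
  · intro i
    fin_cases i
    · rfl
    · exact h11.trans h10.symm
  · have h2 := S1 0 1 a
    rw [h01, h11, ← h10, ← h00] at h2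
    exact h2
  · have h2 := S4 0 w
    rw [← h00] at h2
    exact h2

end two

/-! ### One block and a line -/

section one

variable {F : Type*} [Field F] {W U : Type*} [AddCommGroup W] [Module F W] [AddCommGroup U] [Module F U]
  {E : W →ₗ[F] W} {c₀ : U →ₗ[F] W} {κ : W →ₗ[F] U}

theorem one_nilp (hE : ∀ a, E (E a) = 0) (hc : ∀ w, E (c₀ w) = 0) (hi : Function.Injective c₀)
    (hκ : ∀ a, c₀ (κ a) = E a) :
    IsNilpotent (bl (fun _ _ : Fin 1 => (1 : W →ₗ[F] W)) (fun _ => c₀) (fun _ => κ) - 1) := by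
  refine ⟨3, ?_⟩
  set N := bl (fun _ _ : Fin 1 => (1 : W →ₗ[F] W)) (fun _ => c₀) (fun _ => κ) - 1 with hN
  have h : ∀ v, N v = (fun _ => c₀ v.2, κ (v.1 0)) := by
    intro v
    change bl (fun _ _ : Fin 1 => (1 : W →ₗ[F] W)) (fun _ => c₀) (fun _ => κ) v - v = _
    refine Prod.ext (funext fun k => ?_) ?_
    · change (bl (fun _ _ : Fin 1 => (1 : W →ₗ[F] W)) (fun _ => c₀) (fun _ => κ) v).1 k - v.1 k = c₀ v.2
      rw [bl_fst, Fin.sum_univ_one, Subsingleton.elim k 0, End.one_apply]
      abel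
    · change (bl (fun _ _ : Fin 1 => (1 : W →ₗ[F] W)) (fun _ => c₀) (fun _ => κ) v).2 - v.2 = κ (v.1 0)
      rw [bl_snd, Fin.sum_univ_one]
      abel
  have h1 : ∀ w, κ (c₀ w) = 0 := fun w => hi (by rw [hκ, hc, map_zero])
  have h2 : ∀ a, κ (E a) = 0 := fun a => hi (by rw [hκ, hE, map_zero])
  apply LinearMap.ext
  intro v
  have e : (N ^ 3) v = N (N (N v)) := rfl
  rw [e, h (N (N v)), h (N v), h v]
  refine Prod.ext (funext fun k => ?_) ?_
  · change c₀ (κ (c₀ v.2)) = 0
    rw [h1, map_zero]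
  · change κ (c₀ (κ (v.1 0))) = 0
    rw [hκ, h2]

theorem rig_one (hκ : ∀ a, c₀ (κ a) = E a) :
    Rig E c₀ (bl (fun _ _ : Fin 1 => (1 : W →ₗ[F] W)) (fun _ => c₀) (fun _ => κ) - 1) := by
  intro σ τ A A' D D' h
  obtain ⟨R1, R2, R3, R4⟩ := rel_of_comm (M := fun _ _ : Fin 1 => (1 : W →ₗ[F] W)) (c := fun _ => c₀)
    (c' := fun _ => κ) (σ := σ) (τ := τ) (A := A) (A' := A') (D := D) (D' := D') (fun v => by
      have h1 := h v
      rw [LinearMap.sub_apply, LinearMap.sub_apply] at h1
      simpa using h1)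
  have hall : ∀ i, A i = A 0 := fun i => congrArg A (Subsingleton.elim _ _)
  have hAA : ∀ i, A' i = A 0 := by
    intro i
    refine LinearEquiv.ext fun a => ?_
    have h1 := R1 0 0 a
    rw [Subsingleton.elim (σ 0) 0, Subsingleton.elim (τ 0) i] at h1
    exact h1.symm
  have S4 : ∀ w, c₀ (D w) = A 0 (c₀ w) := by
    intro w
    have h1 := R4 0 w
    rwa [hAA] at h1
  refine ⟨Subsingleton.elim _ _, A 0, hall, fun a => ?_, S4⟩
  have h1 := R2 0 a
  rw [hall, ← R3] at h1
  rw [← hκ, ← hκ, h1, S4]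

end one

end Cfsg.Agent.H728.Meet2
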