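/-
helper728 (task 1918; S5760): the 2-part of `|GL_n(q)|`, `q` odd.
-/
import Mathlib

/-!
# The 2-part of the order of `GL_n(q)`, `q` odd (helper728)

* `val_odd` : `v₂(q ^ (2m+1) - 1) = v₂(q - 1)`;
* `val_even` : `v₂(q ^ (2(m+1)) - 1) = v₂(q + 1) + v₂(q - 1) + v₂(m + 1)`;
* `val_GL` : `v₂ |GL_{2m+ε}(q)| = v₂(m! |GL_2(q)|^m |GL_ε(q)|)`.
-/

set_option autoImplicit false

namespace Cfsg.Agent.H728.Meet2

open Matrix

variable {q : ℕ}

theorem odd_geom (hq : Odd q) (m : ℕ) : Odd (∑ i ∈ Finset.range (2 * m + 1), q ^ i) := by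
  induction m with
  | zero => simp
  | succ m ih =>
    have h : 2 * (m + 1) + 1 = (2 * m + 1) + 1 + 1 := by ring
    rw [h, Finset.sum_range_succ, Finset.sum_range_succ, add_assoc]
    exact ih.add_even ((hq.pow (n := 2 * m + 1)).add_odd (hq.pow (n := 2 * m + 1 + 1)))

theorem sub_one_ne (hq1 : 1 < q) {n : ℕ} (hn : n ≠ 0) : q ^ n - 1 ≠ 0 := by
  have : 1 < q ^ n := Nat.one_lt_pow hn hq1
  omega

theorem val_odd (hq : Odd q) (hq1 : 1 < q) (m : ℕ) :
    padicValNat 2 (q ^ (2 * m + 1) - 1) = padicValNat 2 (q - 1) := by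
  have h1 : q ^ (2 * m + 1) - 1 = (q - 1) * ∑ i ∈ Finset.range (2 * m + 1), q ^ i := by
    have h2 : 1 ≤ q ^ (2 * m + 1) := Nat.one_le_pow _ _ (by omega)
    zify [h2, hq1.le]
    exact (mul_geom_sum (q : ℤ) (2 * m + 1)).symm
  have h3 := odd_geom hq m
  rw [h1, padicValNat.mul (by omega) h3.pos.ne',
    padicValNat.eq_zero_of_not_dvd (n := ∑ i ∈ Finset.range (2 * m + 1), q ^ i) (fun h => by
      rw [← Nat.not_even_iff_odd] at h3
      exact h3 (even_iff_two_dvd.2 h)), add_zero]

theorem val_even (hq : Odd q) (hq1 : 1 < q) (m : ℕ) :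
    padicValNat 2 (q ^ (2 * (m + 1)) - 1) = padicValNat 2 (q + 1) + padicValNat 2 (q - 1) + padicValNat 2 (m + 1) := by
  have h1 := padicValNat.pow_two_sub_pow (x := q) (y := 1) (n := 2 * (m + 1)) hq1 (by
    obtain ⟨k, hk⟩ := hq
    exact ⟨k, by omega⟩) (fun h => by
      rw [← Nat.not_even_iff_odd] at hq
      exact hq (even_iff_two_dvd.2 h)) (by omega) (even_two_mul _)
  rw [one_pow, padicValNat.mul (by norm_num) (Nat.succ_ne_zero m), padicValNat.self (by norm_num), Nat.succ_eq_add_one] at h1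
  omega

variable {F : Type*} [Field F] [Fintype F]

/-- the order of `GL_n(F)` -/
noncomputable def gl (F : Type*) [Field F] (n : ℕ) : ℕ := Nat.card (GL (Fin n) F)

theorem gl_succ (n : ℕ) : gl F (n + 1) = (Fintype.card F ^ (n + 1) - 1) * (Fintype.card F ^ n * gl F n) := by
  unfold gl
  rw [card_GL_field, card_GL_field, Fin.prod_univ_succ]
  congr 1
  have h : ∀ i : Fin n, Fintype.card F ^ (n + 1) - Fintype.card F ^ (i.succ : ℕ) =
      Fintype.card F * (Fintype.card F ^ n - Fintype.card F ^ (i : ℕ)) := by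
    intro i
    rw [Nat.mul_sub, Fin.val_succ, pow_succ, pow_succ, mul_comm (Fintype.card F ^ n), mul_comm (Fintype.card F ^ (i : ℕ))]
  rw [Finset.prod_congr rfl fun i _ => h i, Finset.prod_mul_distrib, Finset.prod_const, Finset.card_univ,
    Fintype.card_fin]

theorem gl_zero : gl F 0 = 1 := by
  unfold gl
  rw [card_GL_field]
  simp

theorem gl_ne (n : ℕ) : gl F n ≠ 0 := by
  have : Finite (GL (Fin n) F) := inferInstance
  exact Nat.card_pos.ne'

theorem val_gl_succ (hF : Odd (Fintype.card F)) (n : ℕ) :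
    padicValNat 2 (gl F (n + 1)) = padicValNat 2 (Fintype.card F ^ (n + 1) - 1) + padicValNat 2 (gl F n) := by
  have h0 : Fintype.card F ^ n ≠ 0 := (pow_pos Fintype.card_pos _).ne'
  have h1 : padicValNat 2 (Fintype.card F ^ n) = 0 := by
    apply padicValNat.eq_zero_of_not_dvd
    have h2 := hF.pow (n := n)
    rw [← Nat.not_even_iff_odd] at h2
    exact fun h => h2 (even_iff_two_dvd.2 h)
  rw [gl_succ, padicValNat.mul (sub_one_ne Fintype.one_lt_card (Nat.succ_ne_zero n)) (mul_ne_zero h0 (gl_ne n)),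
    padicValNat.mul h0 (gl_ne n), h1, zero_add]

theorem val_gl_even (hF : Odd (Fintype.card F)) (m : ℕ) :
    padicValNat 2 (gl F (2 * m)) = m * padicValNat 2 (gl F 2) + padicValNat 2 m.factorial := by
  have hq1 : 1 < Fintype.card F := Fintype.one_lt_card
  have h2 : padicValNat 2 (gl F 2) = padicValNat 2 (Fintype.card F + 1) + padicValNat 2 (Fintype.card F - 1) +
      padicValNat 2 (Fintype.card F - 1) := by
    have e1 := val_gl_succ hF (F := F) 1
    have e2 := val_gl_succ hF (F := F) 0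
    have e3 := val_even hF hq1 0
    rw [gl_zero] at e2
    simp only [zero_add, mul_one, pow_one, padicValNat_one_right, add_zero] at e2 e3
    rw [show (1 : ℕ) + 1 = 2 from rfl] at e1
    rw [e1, e3, e2]
  induction m with
  | zero => simp [gl_zero]
  | succ m ih =>
    have h : 2 * (m + 1) = 2 * m + 1 + 1 := by ring
    rw [h, val_gl_succ hF, val_gl_succ hF, ih, val_odd hF hq1, ← h, val_even hF hq1, h2, Nat.factorial_succ,
      padicValNat.mul (Nat.succ_ne_zero m) m.factorial_ne_zero]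
    ring

theorem val_gl (hF : Odd (Fintype.card F)) (m ε : ℕ) (hε : ε < 2) :
    padicValNat 2 (gl F (2 * m + ε)) = padicValNat 2 (m.factorial * gl F 2 ^ m * gl F ε) := by
  have h1 : padicValNat 2 (m.factorial * gl F 2 ^ m * gl F ε) =
      padicValNat 2 m.factorial + m * padicValNat 2 (gl F 2) + padicValNat 2 (gl F ε) := by
    rw [padicValNat.mul (mul_ne_zero m.factorial_ne_zero (pow_ne_zero _ (gl_ne 2))) (gl_ne ε),
      padicValNat.mul m.factorial_ne_zero (pow_ne_zero _ (gl_ne 2)), padicValNat.pow]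
  rw [h1]
  have hq1 : 1 < Fintype.card F := Fintype.one_lt_card
  interval_cases ε
  · rw [add_zero, val_gl_even hF, gl_zero, padicValNat_one_right]
    ring
  · have e2 := val_gl_succ hF (F := F) 0
    rw [gl_zero] at e2
    simp only [zero_add, pow_one, padicValNat_one_right, add_zero] at e2
    rw [val_gl_succ hF, val_gl_even hF, val_odd hF hq1, e2]
    ring

end Cfsg.Agent.H728.Meet2
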