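/-
helper728 (task 1918; S5760): the row `PSL_n(q)`, `n ≥ 3`, `q` odd, `p = 2`.
-/
import Mathlib
import Cfsg.Agent.H728.Meet2.Rigid
import Cfsg.Agent.H728.Meet2.Val
import Cfsg.Agent.H728.Syl3.Mono
import Cfsg.Agent.H68.MeetBase

/-!
# `PSL_n(q)`, `n ≥ 3`, `q` odd, `p = 2` (helper728)

* `exists_unip` : `1 + N`, `N` nilpotent, as a linear automorphism of `p`-power order;
* `det_eq_one` : its determinant is 1;
* `sep_frame` : some `x` of `p`-power order (`p` the characteristic) such that a block monomial `y` of 2-power order with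
  `x y x⁻¹` block monomial is scalar;
* `not_two_dvd` : the block monomial group has odd index;
* `meet2_PSL` : the row.
-/

set_option autoImplicit false

namespace Cfsg.Agent.H728.Meet2

open Equiv Module Matrix Cfsg.Agent.H68.MeetB

/-! ### Unipotent maps -/

section unip

variable {F : Type*} [Field F] {p : ℕ} [hp : Fact p.Prime] [CharP F p] {V : Type*} [AddCommGroup V] [Module F V]

theorem exists_unip [Nontrivial V] {N : V →ₗ[F] V} (hN : IsNilpotent N) :
    ∃ x : V ≃ₗ[F] V, (∀ v, x v = v + N v) ∧ ∃ k, x ^ p ^ k = 1 := by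
  obtain ⟨u, hu⟩ : IsUnit (1 + N) := hN.isUnit_one_add
  have hch : CharP (Module.End F V) p :=
    charP_of_injective_algebraMap (FaithfulSMul.algebraMap_injective F (Module.End F V)) p
  obtain ⟨n, hn⟩ := hN
  refine ⟨LinearMap.GeneralLinearGroup.generalLinearEquiv F V u, fun v => ?_, n, ?_⟩
  · change (u : V →ₗ[F] V) v = v + N v
    rw [hu]
    rfl
  · rw [← map_pow, ← map_one (LinearMap.GeneralLinearGroup.generalLinearEquiv F V)]
    congr 1
    apply Units.ext
    rw [Units.val_pow_eq_pow_val, hu, Units.val_one, add_pow_char_pow_of_commute p n (Commute.one_left N), one_pow]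
    have h1 : n ≤ p ^ n := (Nat.lt_pow_self hp.out.one_lt).le
    have h2 : N ^ p ^ n = 0 := by
      rw [← Nat.sub_add_cancel h1, pow_add, hn, mul_zero]
    rw [h2, add_zero]

theorem det_eq_one {x : V ≃ₗ[F] V} {k : ℕ} (h : x ^ p ^ k = 1) : LinearEquiv.det x = 1 := by
  have h1 := congrArg LinearEquiv.det h
  rw [map_pow, map_one] at h1
  have h2 : ((LinearEquiv.det x : Fˣ) : F) ^ p ^ k = 1 := by
    rw [← Units.val_pow_eq_pow_val, h1, Units.val_one]
  have h3 : (((LinearEquiv.det x : Fˣ) : F) - 1) ^ p ^ k = 0 := by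
    rw [sub_pow_char_pow, h2, one_pow, sub_self]
  have h4 := pow_eq_zero_iff (pow_ne_zero k hp.out.ne_zero) |>.1 h3
  exact Units.ext (sub_eq_zero.1 h4)

end unip

/-! ### Elements of 2-power order -/

section scal

variable {F : Type*} [Field F] {ε : ℕ}

/-- the matrix unit `E₁₂` -/
def E12 (F : Type*) [Field F] : (Fin 2 → F) →ₗ[F] (Fin 2 → F) :=
  (LinearMap.single F (fun _ : Fin 2 => F) 0).comp (LinearMap.proj 1)

theorem E12_apply (a : Fin 2 → F) : E12 F a = Pi.single 0 (a 1) := rfl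

/-- the column -/
def col (F : Type*) [Field F] (ε : ℕ) : (Fin ε → F) →ₗ[F] (Fin 2 → F) :=
  (LinearMap.single F (fun _ : Fin 2 => F) 0).comp (∑ i, LinearMap.proj i)

theorem col_apply (w : Fin ε → F) : col F ε w = Pi.single 0 (∑ i, w i) := by
  unfold col
  rw [LinearMap.comp_apply, LinearMap.sum_apply]
  rfl

theorem E12_E12 (a : Fin 2 → F) : E12 F (E12 F a) = 0 := by
  rw [E12_apply, E12_apply]
  simp

theorem E12_col (w : Fin ε → F) : E12 F (col F ε w) = 0 := by
  rw [E12_apply, col_apply]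
  simp

theorem col_injective (hε : ε < 2) : Function.Injective (col F ε) := by
  intro u w h
  rw [col_apply, col_apply] at h
  have h1 := Pi.single_injective (M := fun _ : Fin 2 => F) 0 h
  interval_cases ε
  · exact Subsingleton.elim _ _
  · rw [Fin.sum_univ_one, Fin.sum_univ_one] at h1
    funext i
    rw [Subsingleton.elim i 0]
    exact h1

theorem bm_pow {I : Type*} {W U : Type*} [AddCommGroup W] [Module F W] [AddCommGroup U] [Module F U]
    (A : W ≃ₗ[F] W) (D : U ≃ₗ[F] U) (n : ℕ) :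
    bm (1 : Perm I) (fun _ => A) D ^ n = bm (1 : Perm I) (fun _ => A ^ n) (D ^ n) := by
  induction n with
  | zero =>
    rw [pow_zero]
    exact (bm_one (F := F) (I := I) (W := W) (U := U)).symm
  | succ n ih =>
    rw [pow_succ, ih, bm_mul, mul_one]
    rfl

/-- **Elements of 2-power order commuting with `E₁₂` are scalar.** -/
theorem scal_of {I : Type*} [Nonempty I] (h2 : (2 : F) ≠ 0) (hε : ε < 2)
    {A : (Fin 2 → F) ≃ₗ[F] (Fin 2 → F)} {D : (Fin ε → F) ≃ₗ[F] (Fin ε → F)}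
    (hA : ∀ a, E12 F (A a) = A (E12 F a)) (hD : ∀ w, col F ε (D w) = A (col F ε w)) {k : ℕ}
    (hk : bm (1 : Perm I) (fun _ => A) D ^ 2 ^ k = 1) :
    ∃ a : F, ∀ v : (I → (Fin 2 → F)) × (Fin ε → F), bm (1 : Perm I) (fun _ => A) D v = a • v := by
  set a : F := A (Pi.single 0 1) 0 with ha
  set b : F := A (Pi.single 1 1) 0 with hb
  have e1 : A (Pi.single 0 1) = Pi.single 0 (A (Pi.single 1 1) 1) := by
    have h1 := hA (Pi.single 1 1)
    rw [E12_apply, E12_apply, Pi.single_eq_same] at h1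
    exact h1.symm
  have e2 : A (Pi.single 1 1) 1 = a := by
    rw [ha, e1, Pi.single_eq_same]
  have e3 : A (Pi.single 1 1) = Pi.single 0 b + Pi.single 1 a := by
    funext i
    fin_cases i
    · change A (Pi.single 1 1) 0 = (Pi.single 0 b + Pi.single 1 a : Fin 2 → F) 0
      simp [hb]
    · change A (Pi.single 1 1) 1 = (Pi.single 0 b + Pi.single 1 a : Fin 2 → F) 1
      rw [e2]; simp
  have key : ∀ u, A u = a • u + b • E12 F u := by
    intro u
    have h1 : u = u 0 • (Pi.single 0 1 : Fin 2 → F) + u 1 • (Pi.single 1 1 : Fin 2 → F) := by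
      funext i
      fin_cases i <;> simp
    conv_lhs => rw [h1]
    rw [map_add, map_smul, map_smul, e1, e2, e3, E12_apply]
    funext i
    fin_cases i
    · simp only [Fin.zero_eta, Pi.add_apply, Pi.smul_apply, Pi.single_eq_same, smul_eq_mul]
      have h3 : (Pi.single 1 a : Fin 2 → F) 0 = 0 := by simp
      rw [h3]; ring
    · simp only [Fin.mk_one, Pi.add_apply, Pi.smul_apply, Pi.single_eq_same, smul_eq_mul]
      have h3 : ∀ c : F, (Pi.single 0 c : Fin 2 → F) 1 = 0 := fun c => by simp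
      rw [h3, h3, h3]; ring
  have ha0 : a ≠ 0 := by
    intro h0
    rw [e2, h0, Pi.single_zero] at e1
    have h3 := A.map_eq_zero_iff.1 e1
    have h4 := congrFun h3 0
    rw [Pi.single_eq_same] at h4
    exact one_ne_zero h4
  have hpow : ∀ (n : ℕ) (u : Fin 2 → F), (A ^ (n + 1)) u = a ^ (n + 1) • u + (((n : F) + 1) * a ^ n * b) • E12 F u := by
    intro n
    induction n with
    | zero =>
      intro u
      rw [zero_add, pow_one, key]
      simp
    | succ n ih =>
      intro u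
      rw [pow_succ]
      change (A ^ (n + 1)) (A u) = _
      rw [ih, hA, key (E12 F u), E12_E12, smul_zero, add_zero, key u]
      funext i
      simp only [Pi.add_apply, Pi.smul_apply, smul_eq_mul]
      push_cast
      ring
  have hAk : A ^ 2 ^ k = 1 := by
    rw [bm_pow, ← bm_one] at hk
    obtain ⟨i⟩ := ‹Nonempty I›
    exact congrFun (bm_injective hk).2.1 i
  have hb0 : b = 0 := by
    obtain ⟨n, hn⟩ := Nat.exists_eq_succ_of_ne_zero (pow_ne_zero k two_ne_zero : (2 : ℕ) ^ k ≠ 0)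
    rw [hn, Nat.succ_eq_add_one] at hAk
    have h3 := hpow n (Pi.single 1 1)
    rw [hAk, E12_apply] at h3
    have h4 := congrFun h3 0
    have h5 : ((1 : (Fin 2 → F) ≃ₗ[F] (Fin 2 → F)) (Pi.single 1 1)) 0 = 0 := by
      change (Pi.single 1 1 : Fin 2 → F) 0 = 0
      simp
    rw [h5] at h4
    simp only [Pi.add_apply, Pi.smul_apply, Pi.single_eq_same, smul_eq_mul, mul_one] at h4
    have h6 : (Pi.single 1 1 : Fin 2 → F) 0 = 0 := by simp
    rw [h6, mul_zero, zero_add] at h4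
    have h7 : ((n : F) + 1) = 2 ^ k := by
      have : ((2 ^ k : ℕ) : F) = ((n + 1 : ℕ) : F) := by rw [hn]
      push_cast at this
      exact this.symm
    rw [h7] at h4
    have h8 := h4.symm
    rcases mul_eq_zero.1 h8 with h9 | h9
    · rcases mul_eq_zero.1 h9 with h10 | h10
      · exact absurd h10 (pow_ne_zero _ h2)
      · exact absurd h10 (pow_ne_zero _ ha0)
    · exact h9
  have hA' : ∀ u, A u = a • u := by
    intro u
    rw [key, hb0, zero_smul, add_zero]
  refine ⟨a, fun v => Prod.ext (funext fun i => ?_) ?_⟩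
  · rw [bm_fst]
    exact hA' _
  · rw [bm_snd]
    apply col_injective hε
    rw [hD, hA', ← map_smul]
    rfl

end scal

/-! ### The separation -/

section sep

variable {F : Type*} [Field F] {p : ℕ} [hp : Fact p.Prime] [CharP F p]

/-- the space -/
abbrev VV (F : Type*) (m ε : ℕ) := (Fin m → (Fin 2 → F)) × (Fin ε → F)

theorem sep_of_rig {m ε : ℕ} (hm : m ≠ 0) (hε : ε < 2) (h2 : (2 : F) ≠ 0) {N : VV F m ε →ₗ[F] VV F m ε}
    (hN : IsNilpotent N) (hR : Rig (E12 F) (col F ε) N) :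
    ∃ x : VV F m ε ≃ₗ[F] VV F m ε, (∃ k, x ^ p ^ k = 1) ∧
      ∀ y ∈ BM F (Fin m) (Fin 2 → F) (Fin ε → F), x * y * x⁻¹ ∈ BM F (Fin m) (Fin 2 → F) (Fin ε → F) →
        (∃ k, y ^ 2 ^ k = 1) → ∃ a : F, ∀ v, y v = a • v := by
  have : Nonempty (Fin m) := ⟨⟨0, by omega⟩⟩
  have : Nontrivial (Fin m → (Fin 2 → F)) := inferInstance
  obtain ⟨x, hx, hxk⟩ := exists_unip (p := p) hN
  refine ⟨x, hxk, ?_⟩
  rintro _ ⟨σ, A, D, rfl⟩ ⟨τ, A', D', h1⟩ ⟨k, hk⟩
  rw [mul_inv_eq_iff_eq_mul] at h1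
  obtain ⟨rfl, A₀, hA, hE, hc⟩ := hR σ τ A A' D D' fun v => by
    rw [← hx, ← hx]
    exact congrArg (fun g : VV F m ε ≃ₗ[F] VV F m ε => g v) h1
  have hA' : A = fun _ => A₀ := funext hA
  subst hA'
  exact scal_of h2 hε hE hc hk

theorem sep_frame {m ε : ℕ} (hn : 3 ≤ 2 * m + ε) (hε : ε < 2) (h2 : (2 : F) ≠ 0) :
    ∃ x : VV F m ε ≃ₗ[F] VV F m ε, (∃ k, x ^ p ^ k = 1) ∧
      ∀ y ∈ BM F (Fin m) (Fin 2 → F) (Fin ε → F), x * y * x⁻¹ ∈ BM F (Fin m) (Fin 2 → F) (Fin ε → F) →
        (∃ k, y ^ 2 ^ k = 1) → ∃ a : F, ∀ v, y v = a • v := by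
  have hE : ∀ a, E12 F (E12 F a) = 0 := E12_E12
  have hc : ∀ w, E12 F (col F ε w) = 0 := E12_col
  rcases Nat.lt_or_ge m 3 with h3 | h3
  · have h1 : m = 1 ∨ m = 2 := by omega
    rcases h1 with rfl | rfl
    · have h4 : ε = 1 := by omega
      subst h4
      let κ : (Fin 2 → F) →ₗ[F] (Fin 1 → F) := LinearMap.pi fun _ => LinearMap.proj 1
      have hκ : ∀ a, col F 1 (κ a) = E12 F a := by
        intro a
        rw [col_apply, E12_apply, Fin.sum_univ_one]
        rfl
      exact sep_of_rig one_ne_zero hε h2 (one_nilp hE hc (col_injective hε) hκ) (rig_one hκ)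
    · refine sep_of_rig two_ne_zero hε h2 (two_nilp hE hc) (rig_two (e₁ := Pi.single 0 1) ?_ ?_)
      · intro h
        have h4 := congrFun h 0
        rw [Pi.single_eq_same] at h4
        exact one_ne_zero h4
      · rw [E12_apply]
        simp
  · exact sep_of_rig (by omega) hε h2 tri_nilp (rig_tri hE h3)

end sep

/-! ### The index -/

section index

variable {F : Type*} [Field F] [Fintype F]

omit [Fintype F] in
theorem card_lin (n : ℕ) : Nat.card ((Fin n → F) ≃ₗ[F] (Fin n → F)) = gl F n := by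
  unfold gl
  exact Nat.card_congr ((Matrix.GeneralLinearGroup.toLin (n := Fin n) (R := F)).trans
    (LinearMap.GeneralLinearGroup.generalLinearEquiv F (Fin n → F))).symm.toEquiv

/-- conjugation by a linear isomorphism -/
def conjL {V W : Type*} [AddCommGroup V] [Module F V] [AddCommGroup W] [Module F W]
    (φ : V ≃ₗ[F] W) : (V ≃ₗ[F] V) ≃* (W ≃ₗ[F] W) where
  toFun g := (φ.symm.trans g).trans φ
  invFun g := (φ.trans g).trans φ.symm
  left_inv g := by ext; simp
  right_inv g := by ext; simp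
  map_mul' g h := by ext; simp

omit [Fintype F] in
theorem exists_coord (m ε : ℕ) : Nonempty ((Fin (2 * m + ε) → F) ≃ₗ[F] VV F m ε) := by
  refine ⟨LinearEquiv.ofFinrankEq _ _ ?_⟩
  have h1 : Module.finrank F (VV F m ε) = m * 2 + ε := by
    unfold VV
    rw [Module.finrank_prod, Module.finrank_fin_fun, Module.finrank_pi_fintype]
    simp only [Module.finrank_fin_fun, Finset.sum_const, Finset.card_univ, Fintype.card_fin, smul_eq_mul]
  rw [h1, Module.finrank_fin_fun]
  omega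

theorem not_two_dvd (hF : Odd (Fintype.card F)) (m ε : ℕ) (hε : ε < 2) :
    ¬ 2 ∣ (BM F (Fin m) (Fin 2 → F) (Fin ε → F)).index := by
  obtain ⟨φ⟩ := exists_coord (F := F) m ε
  have hcard : Nat.card (VV F m ε ≃ₗ[F] VV F m ε) = gl F (2 * m + ε) := by
    rw [← card_lin, Nat.card_congr (conjL φ).toEquiv]
  have hfin : Finite (VV F m ε ≃ₗ[F] VV F m ε) := Nat.finite_of_card_ne_zero (by rw [hcard]; exact gl_ne _)
  have hfin2 : Finite ((Fin 2 → F) ≃ₗ[F] (Fin 2 → F)) :=
    Nat.finite_of_card_ne_zero (by rw [card_lin]; exact gl_ne _)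
  have h1 := (BM F (Fin m) (Fin 2 → F) (Fin ε → F)).card_mul_index
  have hi0 : (BM F (Fin m) (Fin 2 → F) (Fin ε → F)).index ≠ 0 := Subgroup.index_ne_zero_of_finite
  have h2 := congrArg (padicValNat 2) h1
  rw [hcard, val_gl hF m ε hε, card_BM, card_lin, card_lin, Fintype.card_fin,
    padicValNat.mul (mul_ne_zero (mul_ne_zero m.factorial_ne_zero (pow_ne_zero _ (gl_ne 2))) (gl_ne ε)) hi0] at h2
  intro h7
  have h8 := one_le_padicValNat_of_dvd hi0 h7
  omega

end index

/-! ### The row -/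

section row

variable {F : Type} [Field F] [Fintype F]

theorem meetIn_of_coord {m ε : ℕ} (hn : 3 ≤ 2 * m + ε) (hε : ε < 2) (hF : Odd (Fintype.card F)) :
    MeetIn 2 (ProjectiveSpecialLinearGroup (Fin (2 * m + ε)) F) := by
  have h2' : Fact (Nat.Prime 2) := ⟨Nat.prime_two⟩
  obtain ⟨p, hch⟩ := CharP.exists F
  have hp : Fact p.Prime := ⟨CharP.char_is_prime F p⟩
  have h2 : (2 : F) ≠ 0 := by
    intro h0
    have h3 : ((2 : ℕ) : F) = 0 := by exact_mod_cast h0
    have h4 := (CharP.cast_eq_zero_iff F p 2).1 h3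
    have h5 : p = 2 := (Nat.prime_dvd_prime_iff_eq hp.out Nat.prime_two).1 h4
    subst h5
    obtain ⟨n, -, hn⟩ := FiniteField.card F 2
    rw [hn] at hF
    have h6 : (n : ℕ) ≠ 0 := n.ne_zero
    rw [Nat.odd_pow_iff h6] at hF
    exact absurd hF (by decide)
  obtain ⟨φ⟩ := exists_coord (F := F) m ε
  set n := 2 * m + ε with hn'
  let B := BM F (Fin m) (Fin 2 → F) (Fin ε → F)
  -- the representation
  let ρ : SpecialLinearGroup (Fin n) F →* (VV F m ε ≃ₗ[F] VV F m ε) :=
    (conjL φ).toMonoidHom.comp Matrix.SpecialLinearGroup.toLin'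
  have hρ : ∀ s v, ρ s v = φ (Matrix.SpecialLinearGroup.toLin' s (φ.symm v)) := fun s v => rfl
  have hρi : Function.Injective ρ := by
    intro s t h
    have h3 := (conjL φ).injective h
    exact Matrix.SpecialLinearGroup.toLin'_injective h3
  have hρs : ∀ g : VV F m ε ≃ₗ[F] VV F m ε, LinearEquiv.det g = 1 → ∃ s, ρ s = g := by
    intro g hg
    have h3 : LinearMap.det (((conjL φ).symm g : (Fin n → F) ≃ₗ[F] (Fin n → F)) : (Fin n → F) →ₗ[F] (Fin n → F)) = 1 := by
      have h4 : (((conjL φ).symm g : (Fin n → F) ≃ₗ[F] (Fin n → F)) : (Fin n → F) →ₗ[F] (Fin n → F)) =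
          (φ.symm : VV F m ε →ₗ[F] (Fin n → F)) ∘ₗ (g : VV F m ε →ₗ[F] VV F m ε) ∘ₗ
            (φ.symm.symm : (Fin n → F) →ₗ[F] VV F m ε) := rfl
      rw [h4, LinearMap.det_conj, ← LinearEquiv.coe_det, hg, Units.val_one]
    let s : Matrix.SpecialLinearGroup (Fin n) F := ⟨LinearMap.toMatrix' (((conjL φ).symm g :
      (Fin n → F) ≃ₗ[F] (Fin n → F)) : (Fin n → F) →ₗ[F] (Fin n → F)), by rw [LinearMap.det_toMatrix', h3]⟩
    refine ⟨s, ?_⟩
    apply (conjL φ).symm.injective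
    change (conjL φ).symm ((conjL φ) (Matrix.SpecialLinearGroup.toLin' s)) = _
    rw [MulEquiv.symm_apply_apply]
    refine LinearEquiv.ext fun v => ?_
    change Matrix.toLin' (LinearMap.toMatrix' (((conjL φ).symm g :
      (Fin n → F) ≃ₗ[F] (Fin n → F)) : (Fin n → F) →ₗ[F] (Fin n → F))) v = _
    rw [Matrix.toLin'_toMatrix']
    rfl
  have hfinL : Finite (VV F m ε ≃ₗ[F] VV F m ε) := Nat.finite_of_card_ne_zero (by
    rw [Nat.card_congr (conjL φ).symm.toEquiv, card_lin]; exact gl_ne _)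
  -- scalars
  have hscal : ∀ (g : VV F m ε ≃ₗ[F] VV F m ε) (r : F), (∀ v, g v = r • v) → g ∈ B := by
    intro g r hg
    have hr : r ≠ 0 := by
      rintro rfl
      have hne : Nonempty (Fin n) := ⟨⟨0, by omega⟩⟩
      obtain ⟨v, hv⟩ := exists_ne (0 : Fin n → F)
      have h3 := hg (φ v)
      rw [zero_smul] at h3
      exact hv (φ.map_eq_zero_iff.1 (g.map_eq_zero_iff.1 h3))
    refine ⟨1, fun _ => LinearEquiv.smulOfNeZero F _ r hr, LinearEquiv.smulOfNeZero F _ r hr, ?_⟩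
    exact LinearEquiv.ext fun v => hg v
  have hcen : ∀ z ∈ Subgroup.center (SpecialLinearGroup (Fin n) F), ∃ r : F, ∀ v, ρ z v = r • v := by
    intro z hz
    obtain ⟨r, -, hr⟩ := Matrix.SpecialLinearGroup.mem_center_iff.1 hz
    refine ⟨r, fun v => ?_⟩
    rw [hρ, Matrix.SpecialLinearGroup.toLin'_apply, ← hr, Matrix.toLin'_apply]
    have h3 : (Matrix.scalar (Fin n) r).mulVec (φ.symm v) = r • φ.symm v := by
      rw [Matrix.scalar_apply, Matrix.diagonal_const_mulVec]
    rw [h3, map_smul, LinearEquiv.apply_symm_apply]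
  -- the Sylow subgroup
  let π := QuotientGroup.mk' (Subgroup.center (SpecialLinearGroup (Fin n) F))
  have hπ : Function.Surjective π := QuotientGroup.mk'_surjective _
  obtain ⟨S⟩ : Nonempty (Sylow 2 (SpecialLinearGroup (Fin n) F)) := inferInstance
  have hfinP : Finite (ProjectiveSpecialLinearGroup (Fin n) F) := Finite.of_surjective π hπ
  obtain ⟨h, -, hh⟩ := Cfsg.Agent.H728.Syl3.exists_conj_le (p := 2) B ⊤ (by
    rw [Subgroup.relIndex_top_right]
    exact not_two_dvd hF m ε hε) ((S : Subgroup _).map ρ) le_top (S.isPGroup'.map ρ)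
  obtain ⟨x, ⟨k, hk⟩, hx⟩ := sep_frame (p := p) (F := F) hn hε h2
  -- conjugate
  have hdet : LinearEquiv.det (h * x * h⁻¹) = 1 := by
    rw [map_mul, map_mul, det_eq_one hk, mul_one, ← map_mul, mul_inv_cancel, map_one]
  obtain ⟨s, hs⟩ := hρs _ hdet
  refine MeetIn.of_one ((S : Subgroup _).map π) (S.isPGroup'.map π) ?_ ⟨π s, ?_⟩
  · intro h3
    refine S.not_dvd_index (h3.trans ?_)
    rw [Subgroup.index_map, MonoidHom.range_eq_top.2 hπ, Subgroup.index_top, mul_one]
    exact Subgroup.index_dvd_of_le le_sup_left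
  · rintro _ ⟨γ, hγ, rfl⟩ hy
    rw [← map_inv, ← map_mul, ← map_mul] at hy
    obtain ⟨γ', hγ', hγγ⟩ := hy
    have hz : γ'⁻¹ * (s * γ * s⁻¹) ∈ Subgroup.center (SpecialLinearGroup (Fin n) F) :=
      QuotientGroup.eq.1 hγγ
    obtain ⟨r, hr⟩ := hcen _ hz
    set z := γ'⁻¹ * (s * γ * s⁻¹) with hzdef
    have h3 : h⁻¹ * ρ γ * h ∈ B := hh _ (Subgroup.mem_map_of_mem ρ hγ)
    have h4 : h⁻¹ * ρ γ' * h ∈ B := hh _ (Subgroup.mem_map_of_mem ρ hγ')
    have h5 : h⁻¹ * ρ z * h ∈ B := by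
      refine hscal _ r fun v => ?_
      change h⁻¹ (ρ z (h v)) = r • v
      rw [hr, map_smul]
      congr 1
      exact h.symm_apply_apply v
    have h6 : x * (h⁻¹ * ρ γ * h) * x⁻¹ ∈ B := by
      have e : x * (h⁻¹ * ρ γ * h) * x⁻¹ = (h⁻¹ * ρ γ' * h) * (h⁻¹ * ρ z * h) := by
        have e1 : ρ γ' * ρ z = ρ s * ρ γ * (ρ s)⁻¹ := by
          rw [← map_mul, ← map_inv, ← map_mul, ← map_mul]
          congr 1
          rw [hzdef]; group
        calc x * (h⁻¹ * ρ γ * h) * x⁻¹ = h⁻¹ * ((h * x * h⁻¹) * ρ γ * (h * x * h⁻¹)⁻¹) * h := by group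
          _ = h⁻¹ * (ρ s * ρ γ * (ρ s)⁻¹) * h := by rw [hs]
          _ = h⁻¹ * (ρ γ' * ρ z) * h := by rw [e1]
          _ = _ := by group
      rw [e]
      exact B.mul_mem h4 h5
    obtain ⟨j, hj⟩ := S.isPGroup' ⟨γ, hγ⟩
    have hj' : γ ^ 2 ^ j = 1 := congrArg Subtype.val hj
    obtain ⟨a, ha⟩ := hx _ h3 h6 ⟨j, by
      have e1 := conj_pow (i := 2 ^ j) (a := h⁻¹) (b := ρ γ)
      rw [inv_inv] at e1
      rw [e1, ← map_pow, hj', map_one]
      group⟩
    have h7 : ∀ v, ρ γ v = a • v := by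
      intro v
      have h8 := ha (h⁻¹ v)
      have h9 : (h⁻¹ * ρ γ * h) (h⁻¹ v) = h⁻¹ (ρ γ v) := by
        change h⁻¹ (ρ γ (h (h⁻¹ v))) = _
        congr 2
        exact h.apply_symm_apply v
      rw [h9, ← map_smul] at h8
      exact (h⁻¹).injective h8
    have h8 : γ ∈ Subgroup.center (SpecialLinearGroup (Fin n) F) := by
      rw [Subgroup.mem_center_iff]
      intro δ
      apply hρi
      rw [map_mul, map_mul]
      refine LinearEquiv.ext fun v => ?_
      change ρ δ (ρ γ v) = ρ γ (ρ δ v)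
      rw [h7, h7, map_smul]
    exact (QuotientGroup.eq_one_iff γ).2 h8

/-- **The row `PSL_n(q)`, `n ≥ 3`, `q` odd, of S5760 at `p = 2`.** -/
theorem meet2_PSL {n : ℕ} (hn : 3 ≤ n) (hF : Odd (Fintype.card F)) :
    MeetIn 2 (ProjectiveSpecialLinearGroup (Fin n) F) := by
  obtain ⟨m, ε, rfl, hε⟩ : ∃ m ε, n = 2 * m + ε ∧ ε < 2 := ⟨n / 2, n % 2, by omega, by omega⟩
  exact meetIn_of_coord hn hε hF

end row

end Cfsg.Agent.H728.Meet2
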