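/-
helper728 (task 1919; S5760): the 2-part of `|GU_n(q)|`, `q` odd.
-/
import Mathlib
import Cfsg.Agent.H728.Meet2.Val

/-!
# The 2-part of the order of `GU_n(q)`, `q` odd (helper728)

`val_gu` : `v₂ |GU_{2m+ε}(q)| = v₂(m! |GU_2(q)|^m |GU_ε(q)|)`.
-/

set_option autoImplicit false

namespace Cfsg.Agent.H728.Meet2

variable {q : ℕ}

theorem plus_odd (hq : Odd q) (m : ℕ) : ∃ a, Odd a ∧ q ^ (2 * m + 1) + 1 = (q + 1) * a := by
  obtain ⟨t, rfl⟩ := hq
  induction m with
  | zero => exact ⟨1, odd_one, by ring⟩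
  | succ m ih =>
    obtain ⟨a, ha, h1⟩ := ih
    have ha1 : 1 ≤ a := ha.pos
    obtain ⟨c, hc⟩ := Nat.exists_eq_add_of_le (show 2 * t ≤ (2 * t + 1) ^ 2 * a by nlinarith)
    have hodd : Odd ((2 * t + 1) ^ 2 * a) := ((odd_two_mul_add_one t).pow).mul ha
    refine ⟨c, ?_, ?_⟩
    · rw [hc] at hodd
      by_contra hcon
      rw [Nat.not_odd_iff_even] at hcon
      have h2 := (even_two_mul t).add hcon
      rw [← Nat.not_odd_iff_even] at h2
      exact h2 hodd
    · have h2 : (2 * t + 1) ^ (2 * (m + 1) + 1) = (2 * t + 1) ^ 2 * (2 * t + 1) ^ (2 * m + 1) := by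
        rw [← pow_add]
        congr 1
        ring
      have h3 : (2 * t + 1) ^ 2 * ((2 * t + 1) ^ (2 * m + 1) + 1) = (2 * t + 1 + 1) * (2 * t + c) := by
        rw [h1, ← hc]
        ring
      rw [h2]
      nlinarith

theorem val_plus (hq : Odd q) (m : ℕ) : padicValNat 2 (q ^ (2 * m + 1) + 1) = padicValNat 2 (q + 1) := by
  obtain ⟨a, ha, h⟩ := plus_odd hq m
  rw [h, padicValNat.mul (Nat.succ_ne_zero q) ha.pos.ne', padicValNat.eq_zero_of_not_dvd (n := a) (fun h => by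
      rw [← Nat.not_even_iff_odd] at ha
      exact ha (even_iff_two_dvd.2 h)), add_zero]

/-- the order of `GU_n(q)` -/
def gu (q n : ℕ) : ℕ :=
  q ^ (n * (n - 1) / 2) * ∏ i ∈ Finset.range n, (if Even i then q ^ (i + 1) + 1 else q ^ (i + 1) - 1)

/-- the factors -/
def guf (q i : ℕ) : ℕ := if Even i then q ^ (i + 1) + 1 else q ^ (i + 1) - 1

theorem guf_ne (hq1 : 1 < q) (i : ℕ) : guf q i ≠ 0 := by
  unfold guf
  split_ifs
  · omega
  · exact sub_one_ne hq1 (Nat.succ_ne_zero i)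

theorem guf_prod_ne (hq1 : 1 < q) (n : ℕ) : ∏ i ∈ Finset.range n, guf q i ≠ 0 :=
  Finset.prod_ne_zero_iff.2 fun i _ => guf_ne hq1 i

theorem gu_eq (q n : ℕ) : gu q n = q ^ (n * (n - 1) / 2) * ∏ i ∈ Finset.range n, guf q i := rfl

theorem gu_ne (hq1 : 1 < q) (n : ℕ) : gu q n ≠ 0 := by
  rw [gu_eq]
  exact mul_ne_zero (pow_ne_zero _ (by omega)) (guf_prod_ne hq1 n)

theorem val_gu_eq (hq : Odd q) (hq1 : 1 < q) (n : ℕ) :
    padicValNat 2 (gu q n) = padicValNat 2 (∏ i ∈ Finset.range n, guf q i) := by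
  have h1 : padicValNat 2 (q ^ (n * (n - 1) / 2)) = 0 := by
    apply padicValNat.eq_zero_of_not_dvd
    have h2 := hq.pow (n := n * (n - 1) / 2)
    rw [← Nat.not_even_iff_odd] at h2
    exact fun h => h2 (even_iff_two_dvd.2 h)
  rw [gu_eq, padicValNat.mul (pow_ne_zero _ (by omega)) (guf_prod_ne hq1 n), h1, zero_add]

theorem val_gu_zero : padicValNat 2 (gu q 0) = 0 := by simp [gu]

theorem val_gu_succ (hq : Odd q) (hq1 : 1 < q) (n : ℕ) :
    padicValNat 2 (gu q (n + 1)) = padicValNat 2 (guf q n) + padicValNat 2 (gu q n) := by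
  rw [val_gu_eq hq hq1, val_gu_eq hq hq1, Finset.prod_range_succ, padicValNat.mul (guf_prod_ne hq1 n) (guf_ne hq1 n),
    add_comm]

theorem val_guf_even (hq : Odd q) (m : ℕ) : padicValNat 2 (guf q (2 * m)) = padicValNat 2 (q + 1) := by
  unfold guf
  rw [if_pos (even_two_mul m), val_plus hq]

theorem val_guf_odd (hq : Odd q) (hq1 : 1 < q) (m : ℕ) : padicValNat 2 (guf q (2 * m + 1)) =
    padicValNat 2 (q + 1) + padicValNat 2 (q - 1) + padicValNat 2 (m + 1) := by
  unfold guf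
  rw [if_neg (by rw [Nat.not_even_iff_odd]; exact odd_two_mul_add_one m)]
  exact val_even hq hq1 m

theorem val_gu_even (hq : Odd q) (hq1 : 1 < q) (m : ℕ) :
    padicValNat 2 (gu q (2 * m)) = m * padicValNat 2 (gu q 2) + padicValNat 2 m.factorial := by
  have h2 : padicValNat 2 (gu q 2) = padicValNat 2 (q + 1) + padicValNat 2 (q - 1) + padicValNat 2 (q + 1) := by
    have e1 := val_gu_succ hq hq1 1
    have e2 := val_gu_succ hq hq1 0
    have e3 := val_guf_odd hq hq1 0
    have e4 := val_guf_even hq 0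
    rw [val_gu_zero] at e2
    simp only [mul_zero, zero_add, padicValNat_one_right, add_zero] at e2 e3 e4
    rw [show (1 : ℕ) + 1 = 2 from rfl] at e1
    rw [e1, e3, e2, e4]
  induction m with
  | zero => simp [val_gu_zero]
  | succ m ih =>
    have h : 2 * (m + 1) = 2 * m + 1 + 1 := by ring
    rw [h, val_gu_succ hq hq1, val_gu_succ hq hq1, ih, val_guf_odd hq hq1, val_guf_even hq, h2, Nat.factorial_succ,
      padicValNat.mul (Nat.succ_ne_zero m) m.factorial_ne_zero]
    ring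

theorem val_gu (hq : Odd q) (hq1 : 1 < q) (m ε : ℕ) (hε : ε < 2) :
    padicValNat 2 (gu q (2 * m + ε)) = padicValNat 2 (m.factorial * gu q 2 ^ m * gu q ε) := by
  have h1 : padicValNat 2 (m.factorial * gu q 2 ^ m * gu q ε) =
      padicValNat 2 m.factorial + m * padicValNat 2 (gu q 2) + padicValNat 2 (gu q ε) := by
    rw [padicValNat.mul (mul_ne_zero m.factorial_ne_zero (pow_ne_zero _ (gu_ne hq1 2))) (gu_ne hq1 ε),
      padicValNat.mul m.factorial_ne_zero (pow_ne_zero _ (gu_ne hq1 2)), padicValNat.pow]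
  rw [h1]
  interval_cases ε
  · rw [add_zero, val_gu_even hq hq1, val_gu_zero]
    ring
  · have e2 := val_gu_succ hq hq1 0
    have e4 := val_guf_even hq 0
    rw [val_gu_zero] at e2
    simp only [mul_zero, zero_add, add_zero] at e2 e4
    rw [val_gu_succ hq hq1, val_gu_even hq hq1, val_guf_even hq, e2, e4]
    ring

end Cfsg.Agent.H728.Meet2
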