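/-
helper728 (task 1919; S5760): the hermitian frame for the row `PSU_n(q)`, `n ≥ 3`, `q` odd, `p = 2`.
-/
import Mathlib
import Cfsg.Agent.H728.Meet2.Psl
import Cfsg.Agent.H728.Meet2.PairZ
import Cfsg.Agent.H728.Meet2.ValU
import Cfsg.Agent.H749.Herm
import Cfsg.Agent.S0277

/-!
# Block monomial isometries of a hermitian space (helper728)

`V = (Fin m → Fin 2 → F) × (Fin ε → F)` with the form `ff` : hyperbolic planes and a standard form.

* `bm_mem` : the block monomial isometries; `not_two_dvd_U` : they form a group of odd index;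
* `NU c` : the nilpotent map with `1 + NU c` an isometry if `c + σ c + ε = 0` (`NU_mem`);
* `diagU` : the relations for `y`, `(1 + NU c) y (1 + NU c)⁻¹` both block monomial.
-/

set_option autoImplicit false

namespace Cfsg.Agent.H728.Meet2

open Equiv Module Matrix Cfsg.Agent.H68.MeetB Cfsg.Agent.H749

section form

variable {F : Type*} [Field F] {σ : F →+* F} {m ε : ℕ}

/-- the hyperbolic plane -/
def hyp (σ : F →+* F) (u v : Fin 2 → F) : F := u 0 * σ (v 1) + u 1 * σ (v 0)

theorem hyp_hermF (hσ2 : ∀ a, σ (σ a) = a) : HermF σ (hyp σ) where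
  add u u' v := by simp only [hyp, Pi.add_apply]; ring
  smul c u v := by simp only [hyp, Pi.smul_apply, smul_eq_mul]; ring
  symm u v := by simp only [hyp, map_add, map_mul, hσ2]; ring
  nd u h := by
    funext i
    fin_cases i
    · have := h (Pi.single 1 1)
      simpa [hyp] using this
    · have := h (Pi.single 0 1)
      simpa [hyp] using this

/-- the standard form -/
def stdf (σ : F →+* F) (ε : ℕ) (u v : Fin ε → F) : F := ∑ i, u i * σ (v i)

theorem stdf_hermF (hσ2 : ∀ a, σ (σ a) = a) : HermF σ (stdf σ ε) where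
  add u u' v := by simp only [stdf, Pi.add_apply, add_mul, Finset.sum_add_distrib]
  smul c u v := by simp only [stdf, Pi.smul_apply, smul_eq_mul, Finset.mul_sum, mul_assoc]
  symm u v := by
    simp only [stdf, map_sum, map_mul, hσ2]
    exact Finset.sum_congr rfl fun i _ => mul_comm _ _
  nd u h := by
    funext i
    have h1 := h (Pi.single i 1)
    unfold stdf at h1
    rw [Finset.sum_eq_single i] at h1
    · simpa using h1
    · intro j _ hj
      rw [Pi.single_eq_of_ne hj, map_zero, mul_zero]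
    · intro h2
      exact absurd (Finset.mem_univ i) h2

/-- the form -/
def ff (σ : F →+* F) (m ε : ℕ) : VV F m ε → VV F m ε → F := sumForm (ι := Fin m) (hyp σ) (stdf σ ε)

theorem ff_apply (u v : VV F m ε) : ff σ m ε u v = (∑ i, hyp σ (u.1 i) (v.1 i)) + stdf σ ε u.2 v.2 := rfl

theorem ff_hermF (hσ2 : ∀ a, σ (σ a) = a) : HermF σ (ff σ m ε) := (hyp_hermF hσ2).sum (stdf_hermF hσ2)

theorem hyp_zero_left (v : Fin 2 → F) : hyp σ 0 v = 0 := by simp [hyp]

theorem stdf_zero_left (v : Fin ε → F) : stdf σ ε 0 v = 0 := by simp [stdf]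

theorem ff_single (j : Fin m) (a a' : Fin 2 → F) :
    ff σ m ε (Pi.single j a, 0) (Pi.single j a', 0) = hyp σ a a' := by
  rw [ff_apply, stdf_zero_left, add_zero, Finset.sum_eq_single j]
  · change hyp σ ((Pi.single j a : Fin m → Fin 2 → F) j) ((Pi.single j a' : Fin m → Fin 2 → F) j) = _
    rw [Pi.single_eq_same, Pi.single_eq_same]
  · intro l _ hl
    change hyp σ ((Pi.single j a : Fin m → Fin 2 → F) l) _ = 0
    rw [Pi.single_eq_of_ne hl, hyp_zero_left]
  · intro h; exact absurd (Finset.mem_univ _) h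

theorem ff_zero (w w' : Fin ε → F) : ff σ m ε (0, w) (0, w') = stdf σ ε w w' := by
  rw [ff_apply]
  change (∑ i : Fin m, hyp σ 0 0) + stdf σ ε w w' = _
  rw [hyp_zero_left, Finset.sum_const_zero, zero_add]

theorem bm_mem {π : Perm (Fin m)} {A : Fin m → ((Fin 2 → F) ≃ₗ[F] (Fin 2 → F))}
    {D : (Fin ε → F) ≃ₗ[F] (Fin ε → F)} :
    bm π A D ∈ Iso (ff σ m ε) ↔ (∀ k, A k ∈ Iso (hyp σ)) ∧ D ∈ Iso (stdf σ ε) := by
  constructor
  · refine fun h => ⟨fun k a a' => ?_, fun w w' => ?_⟩
    · have h1 := h (Pi.single (π.symm k) a, 0) (Pi.single (π.symm k) a', 0)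
      rw [bm_single, bm_single, ff_single, ff_single, Equiv.apply_symm_apply] at h1
      exact h1
    · have h1 := h (0, w) (0, w')
      have e : ∀ w, bm π A D (0, w) = ((0, D w) : VV F m ε) := fun w =>
        Prod.ext (funext fun k => (A k).map_zero) rfl
      rw [e, e, ff_zero, ff_zero] at h1
      exact h1
  · rintro ⟨h1, h2⟩ u v
    rw [ff_apply, ff_apply]
    simp only [bm_fst, bm_snd]
    congr 1
    · rw [← Equiv.sum_comp π.symm fun i => hyp σ (u.1 i) (v.1 i)]
      exact Finset.sum_congr rfl fun i _ => h1 i _ _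
    · exact h2 _ _

/-- the block monomial isometries -/
def HU (σ : F →+* F) (m ε : ℕ) : Subgroup (Iso (ff σ m ε)) :=
  (BM F (Fin m) (Fin 2 → F) (Fin ε → F)).subgroupOf (Iso (ff σ m ε))

theorem mem_HU {g : Iso (ff σ m ε)} : g ∈ HU σ m ε ↔ ∃ π A D, (g : VV F m ε ≃ₗ[F] VV F m ε) = bm π A D := Iff.rfl

theorem card_HU [Finite F] : Nat.card (HU σ m ε) =
    m.factorial * Nat.card (Iso (hyp σ)) ^ m * Nat.card (Iso (stdf σ ε)) := by
  let e : (Perm (Fin m) × (Fin m → Iso (hyp σ))) × Iso (stdf σ ε) ≃ HU σ m ε :=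
    Equiv.ofBijective (fun x => ⟨⟨bm x.1.1 (fun k => (x.1.2 k : (Fin 2 → F) ≃ₗ[F] (Fin 2 → F))) x.2,
        bm_mem.2 ⟨fun k => (x.1.2 k).2, x.2.2⟩⟩, _, _, _, rfl⟩) ⟨by
      rintro ⟨⟨σ, A⟩, D⟩ ⟨⟨σ', A'⟩, D'⟩ h
      have h1 := congrArg Subtype.val (congrArg Subtype.val h)
      obtain ⟨rfl, h2, h3⟩ := bm_injective h1
      obtain rfl : A = A' := funext fun k => Subtype.ext (congrFun h2 k)
      obtain rfl : D = D' := Subtype.ext h3
      rfl, by
      rintro ⟨g, σ, A, D, h⟩
      have h0 : (g : VV F m ε ≃ₗ[F] VV F m ε) = bm σ A D := h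
      have h1 := bm_mem.1 (h0 ▸ g.2)
      exact ⟨((σ, fun k => ⟨A k, h1.1 k⟩), ⟨D, h1.2⟩), Subtype.ext (Subtype.ext h0.symm)⟩⟩
  rw [← Nat.card_congr e, Nat.card_prod, Nat.card_prod, Nat.card_perm, Nat.card_eq_fintype_card (α := Fin m),
    Nat.card_fun, Nat.card_eq_fintype_card (α := Fin m), Fintype.card_fin]

end form

/-! ### The index -/

section index

variable {F : Type*} [Field F] [Fintype F] {q : ℕ} {σ : F →+* F} {m ε : ℕ}

theorem card_iso (hF : Fintype.card F = q ^ 2) (hσ : ∀ x, σ x = x ^ q) {V : Type*} [AddCommGroup V] [Module F V]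
    [FiniteDimensional F V] {f : V → V → F} (h : HermF σ f) {n : ℕ} (hn : finrank F V = n) :
    Nat.card (Iso f) = gu q n := by
  obtain ⟨j, hj⟩ := h.exists_iso (sigma_ne hF hσ) (sigma_sigma hF hσ) hσ hn
  have hS : SimF j (hermForm n F q) f 1 := ⟨one_ne_zero, fun x y => by rw [one_mul]; exact hj x y⟩
  rw [← Nat.card_congr (isoEquiv hS).toEquiv]
  exact Cfsg.Agent.S0277.result hF n

omit [Fintype F] in
theorem finrank_VV (m ε : ℕ) : finrank F (VV F m ε) = 2 * m + ε := by
  unfold VV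
  rw [Module.finrank_prod, Module.finrank_fin_fun, Module.finrank_pi_fintype]
  simp only [Module.finrank_fin_fun, Finset.sum_const, Finset.card_univ, Fintype.card_fin, smul_eq_mul]
  rw [mul_comm]

theorem not_two_dvd_U (hF : Fintype.card F = q ^ 2) (hq : Odd q) (hσ : ∀ x, σ x = x ^ q) (hε : ε < 2) :
    ¬ 2 ∣ (HU σ m ε).index := by
  have hq1 : 1 < q := by
    have := ClassicalGeometry.GUBasic.two_le hF
    omega
  have hσ2 := sigma_sigma hF hσ
  have hcard : Nat.card (Iso (ff σ m ε)) = gu q (2 * m + ε) := card_iso hF hσ (ff_hermF hσ2) (finrank_VV m ε)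
  have hc2 : Nat.card (Iso (hyp σ)) = gu q 2 := card_iso hF hσ (hyp_hermF hσ2) (Module.finrank_fin_fun F)
  have hcε : Nat.card (Iso (stdf σ ε)) = gu q ε := card_iso hF hσ (stdf_hermF hσ2) (Module.finrank_fin_fun F)
  have hfin : Finite (Iso (ff σ m ε)) := Nat.finite_of_card_ne_zero (by rw [hcard]; exact gu_ne hq1 _)
  have h1 := (HU σ m ε).card_mul_index
  have hi0 : (HU σ m ε).index ≠ 0 := Subgroup.index_ne_zero_of_finite
  have h2 := congrArg (padicValNat 2) h1
  rw [hcard, val_gu hq hq1 m ε hε, card_HU, hc2, hcε,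
    padicValNat.mul (mul_ne_zero (mul_ne_zero m.factorial_ne_zero (pow_ne_zero _ (gu_ne hq1 2))) (gu_ne hq1 ε)) hi0] at h2
  intro h7
  have : Fact (Nat.Prime 2) := ⟨Nat.prime_two⟩
  have h8 := one_le_padicValNat_of_dvd hi0 h7
  omega

end index

/-! ### The unipotent isometry -/

section unip

variable {F : Type*} [Field F] {σ : F →+* F} {m ε : ℕ} {c : F}

/-- the nilpotent map -/
def NU (c : F) (m ε : ℕ) : VV F m ε →ₗ[F] VV F m ε where
  toFun v := (fun _ => Pi.single 0 (c * (∑ j, v.1 j 1) + ∑ i, v.2 i), fun _ => -(∑ j, v.1 j 1))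
  map_add' u v := by
    refine Prod.ext (funext fun k => ?_) (funext fun i => ?_)
    · simp only [Prod.fst_add, Prod.snd_add, Pi.add_apply, Finset.sum_add_distrib]
      rw [← Pi.single_add]
      congr 1
      ring
    · simp only [Prod.fst_add, Prod.snd_add, Pi.add_apply, Finset.sum_add_distrib]
      ring
  map_smul' a v := by
    refine Prod.ext (funext fun k => ?_) (funext fun i => ?_)
    · simp only [Prod.smul_fst, Prod.smul_snd, Pi.smul_apply, smul_eq_mul, ← Finset.mul_sum, RingHom.id_apply]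
      rw [← Pi.single_smul', smul_eq_mul]
      congr 1
      ring
    · simp only [Prod.smul_fst, Prod.smul_snd, Pi.smul_apply, smul_eq_mul, ← Finset.mul_sum, RingHom.id_apply]
      ring

theorem NU_fst (v : VV F m ε) (k : Fin m) :
    (NU c m ε v).1 k = Pi.single 0 (c * (∑ j, v.1 j 1) + ∑ i, v.2 i) := rfl

theorem NU_snd (v : VV F m ε) (i : Fin ε) : (NU c m ε v).2 i = -(∑ j, v.1 j 1) := rfl

theorem NU_fst_one (v : VV F m ε) (k : Fin m) : (NU c m ε v).1 k 1 = 0 := by
  rw [NU_fst]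
  exact Pi.single_eq_of_ne (by decide) _

theorem NU_nilp : IsNilpotent (NU c m ε) := by
  refine ⟨3, LinearMap.ext fun v => ?_⟩
  change NU c m ε (NU c m ε (NU c m ε v)) = 0
  have h1 : ∀ v, ∑ j, (NU c m ε v).1 j 1 = 0 := fun v => Finset.sum_eq_zero fun j _ => NU_fst_one v j
  have h2 : ∀ v i, (NU c m ε (NU c m ε v)).2 i = 0 := fun v i => by rw [NU_snd, h1, neg_zero]
  refine Prod.ext (funext fun k => ?_) (funext fun i => ?_)
  · rw [NU_fst, h1, mul_zero, zero_add, Finset.sum_eq_zero fun i _ => h2 v i, Pi.single_zero]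
    rfl
  · rw [h2]
    rfl

theorem NU_mem {x : VV F m ε ≃ₗ[F] VV F m ε} (hx : ∀ v, x v = v + NU c m ε v) (hc : c + σ c + ε = 0) :
    x ∈ Iso (ff σ m ε) := by
  intro u v
  rw [hx, hx, ff_apply, ff_apply]
  set t := ∑ j, u.1 j 1 with ht
  set t' := ∑ j, v.1 j 1 with ht'
  set s := ∑ i, u.2 i with hs
  set s' := ∑ i, v.2 i with hs'
  have h1 : ∀ i, hyp σ ((u + NU c m ε u).1 i) ((v + NU c m ε v).1 i) =
      hyp σ (u.1 i) (v.1 i) + (c * t + s) * σ (v.1 i 1) + u.1 i 1 * σ (c * t' + s') := by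
    intro i
    have e1 : ∀ w : VV F m ε, (w + NU c m ε w).1 i 1 = w.1 i 1 := fun w => by
      change w.1 i 1 + (NU c m ε w).1 i 1 = _
      rw [NU_fst_one, add_zero]
    have e2 : ∀ w : VV F m ε, (w + NU c m ε w).1 i 0 = w.1 i 0 + (c * (∑ j, w.1 j 1) + ∑ i, w.2 i) := fun w => by
      change w.1 i 0 + (NU c m ε w).1 i 0 = _
      rw [NU_fst, Pi.single_eq_same]
    unfold hyp
    rw [e1, e1, e2, e2, map_add]
    ring
  have h2 : stdf σ ε (u + NU c m ε u).2 (v + NU c m ε v).2 =
      stdf σ ε u.2 v.2 - t * σ s' - s * σ t' + ε * (t * σ t') := by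
    unfold stdf
    have e1 : ∀ i, (u + NU c m ε u).2 i * σ ((v + NU c m ε v).2 i) =
        u.2 i * σ (v.2 i) - t * σ (v.2 i) - u.2 i * σ t' + t * σ t' := by
      intro i
      change (u.2 i + (NU c m ε u).2 i) * σ (v.2 i + (NU c m ε v).2 i) = _
      rw [NU_snd, NU_snd, map_add, map_neg]
      ring
    rw [Finset.sum_congr rfl fun i _ => e1 i, Finset.sum_add_distrib, Finset.sum_sub_distrib, Finset.sum_sub_distrib,
      ← Finset.mul_sum, ← Finset.sum_mul, Finset.sum_const, Finset.card_univ, Fintype.card_fin, nsmul_eq_mul,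
      ← map_sum]
  rw [Finset.sum_congr rfl fun i _ => h1 i, Finset.sum_add_distrib, Finset.sum_add_distrib, ← Finset.mul_sum,
    ← Finset.sum_mul, h2, ← map_sum, ← ht', ← ht, map_add, map_mul]
  linear_combination (t * σ t') * hc

/-- the blocks -/
def MU (c : F) (i j : Fin m) : (Fin 2 → F) →ₗ[F] (Fin 2 → F) := (if i = j then LinearMap.id else 0) + c • E12 F

theorem MU_same (i : Fin m) (a : Fin 2 → F) : MU c i i a = a + c • E12 F a := by
  unfold MU
  rw [if_pos rfl]
  rfl

theorem MU_ne {i j : Fin m} (h : i ≠ j) (a : Fin 2 → F) : MU c i j a = c • E12 F a := by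
  unfold MU
  rw [if_neg h, zero_add]
  rfl

/-- the last row -/
def rowU (F : Type*) [Field F] (ε : ℕ) : (Fin 2 → F) →ₗ[F] (Fin ε → F) := -LinearMap.pi fun _ => LinearMap.proj 1

theorem rowU_apply (a : Fin 2 → F) : rowU F ε a = fun _ => -(a 1) := rfl

theorem bl_NU (v : VV F m ε) : bl (MU c) (fun _ => col F ε) (fun _ => rowU F ε) v = v + NU c m ε v := by
  have e : ∀ f : Fin m → F, (Pi.single 0 (∑ j, f j) : Fin 2 → F) = ∑ j, Pi.single 0 (f j) := fun f =>
    map_sum (LinearMap.single F (fun _ : Fin 2 => F) 0) f Finset.univ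
  refine Prod.ext (funext fun k => ?_) (funext fun i => ?_)
  · rw [bl_fst]
    change _ = v.1 k + (NU c m ε v).1 k
    rw [NU_fst, Pi.single_add, ← add_assoc, col_apply]
    congr 1
    have h1 : ∀ j, MU c k j (v.1 j) = (if k = j then v.1 j else 0) + c • Pi.single 0 (v.1 j 1) := by
      intro j
      by_cases h : k = j
      · subst h
        rw [MU_same, if_pos rfl, E12_apply]
      · rw [MU_ne h, if_neg h, zero_add, E12_apply]
    rw [Finset.sum_congr rfl fun j _ => h1 j, Finset.sum_add_distrib, Finset.sum_ite_eq Finset.univ k,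
      if_pos (Finset.mem_univ _), ← Finset.smul_sum, ← e, ← Pi.single_smul', smul_eq_mul]
  · rw [bl_snd]
    change v.2 i + (∑ j, rowU F ε (v.1 j)) i = v.2 i + (NU c m ε v).2 i
    rw [NU_snd, Finset.sum_apply]
    simp only [rowU_apply, Finset.sum_neg_distrib]

theorem E12_single_zero : E12 F (Pi.single 0 1) = 0 := by
  rw [E12_apply]
  have h : (Pi.single 0 1 : Fin 2 → F) 1 = 0 := Pi.single_eq_of_ne (by decide) _
  rw [h, Pi.single_zero]

theorem E12_single_one : E12 F (Pi.single 1 1) = Pi.single 0 1 := by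
  rw [E12_apply, Pi.single_eq_same]

/-- **The relations.** -/
theorem diagU (hc : c ≠ 0) (hn : 3 ≤ 2 * m + ε) (hε : ε < 2) {π τ : Perm (Fin m)}
    {A A' : Fin m → ((Fin 2 → F) ≃ₗ[F] (Fin 2 → F))} {D D' : (Fin ε → F) ≃ₗ[F] (Fin ε → F)}
    (h : ∀ v, bm π A D v + NU c m ε (bm π A D v) = bm τ A' D' (v + NU c m ε v)) :
    (∀ k, A k (Pi.single 0 1) 1 = 0) ∧
      ((ε = 1 ∧ ∃ μ : F, (∀ w i, D w i = μ * w i) ∧ ∀ k, A k (Pi.single 0 1) 0 = μ ∧ A k (Pi.single 1 1) 1 = μ) ∨
        (ε = 0 ∧ ∀ k l, k ≠ l → A k (Pi.single 0 1) 0 = A l (Pi.single 1 1) 1)) := by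
  obtain ⟨r1, r2, r3, r4⟩ := rel_of_comm (M := MU c) (c := fun _ => col F ε) (c' := fun _ => rowU F ε)
    (σ := π) (τ := τ) (A := A) (A' := A') (D := D) (D' := D') fun v => by rw [bl_NU, bl_NU]; exact h v
  subst r3
  have hπ : ∀ i, τ i = π i := by
    intro i
    by_contra hne
    obtain ⟨a, ha⟩ := (A (π i)).surjective (Pi.single 0 1)
    have h1 := r1 i i a
    rw [MU_ne hne, ha, E12_single_zero, smul_zero, MU_same] at h1
    have h2 := (A' (τ i)).map_eq_zero_iff.1 h1.symm
    have h3 : a 1 = 0 := by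
      have h4 := congrFun h2 1
      rw [E12_apply] at h4
      simpa using h4
    have h4 : a = 0 := by
      rw [E12_apply, h3, Pi.single_zero, smul_zero, add_zero] at h2
      exact h2
    rw [h4, map_zero] at ha
    have h5 := congrFun ha 0
    rw [Pi.single_eq_same] at h5
    exact zero_ne_one h5
  have s1 : ∀ k a, A k a + c • E12 F (A k a) = A' k (a + c • E12 F a) := by
    intro k a
    obtain ⟨i, rfl⟩ := π.surjective k
    have h1 := r1 i i a
    rw [hπ, MU_same, MU_same] at h1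
    exact h1
  have s2 : ∀ k l, k ≠ l → ∀ a, E12 F (A l a) = A' k (E12 F a) := by
    intro k l hkl a
    obtain ⟨i, rfl⟩ := π.surjective k
    obtain ⟨j, rfl⟩ := π.surjective l
    have hij : i ≠ j := fun h => hkl (by rw [h])
    have h1 := r1 i j a
    rw [hπ, MU_ne hkl, MU_ne hij, map_smul] at h1
    exact smul_right_injective _ hc h1
  have s3 : ∀ k a, (fun _ : Fin ε => A k a 1) = D fun _ => a 1 := by
    intro k a
    obtain ⟨j, rfl⟩ := π.surjective k
    have h1 := r2 j a
    rw [rowU_apply, rowU_apply] at h1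
    have h2 : (fun _ : Fin ε => -(A (π j) a 1)) = -fun _ => A (π j) a 1 := rfl
    have h3 : (fun _ : Fin ε => -(a 1)) = -fun _ => a 1 := rfl
    rw [h2, h3, map_neg] at h1
    exact neg_injective h1
  have s4 : ∀ k w, col F ε (D w) = A' k (col F ε w) := by
    intro k w
    obtain ⟨j, rfl⟩ := τ.surjective k
    exact r4 j w
  have t1 : ∀ k, A k (Pi.single 0 1) 1 = 0 → A' k (Pi.single 0 1) = A k (Pi.single 0 1) := by
    intro k hk
    have h1 := s1 k (Pi.single 0 1)
    rw [E12_single_zero, smul_zero, add_zero, E12_apply, hk, Pi.single_zero, smul_zero, add_zero] at h1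
    exact h1.symm
  have hε' : ε = 0 ∨ ε = 1 := by omega
  rcases hε' with rfl | rfl
  · have hne : ∀ k : Fin m, ∃ l, l ≠ k := by
      intro k
      have : Nontrivial (Fin m) := Fin.nontrivial_iff_two_le.2 (by omega)
      exact exists_ne k
    have h0 : ∀ k, A k (Pi.single 0 1) 1 = 0 := by
      intro k
      obtain ⟨l, hl⟩ := hne k
      have h1 := s2 l k hl (Pi.single 0 1)
      rw [E12_single_zero, map_zero, E12_apply] at h1
      have h2 := congrFun h1 0
      rwa [Pi.single_eq_same] at h2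
    refine ⟨h0, Or.inr ⟨rfl, fun k l hkl => ?_⟩⟩
    have h1 := s2 k l hkl (Pi.single 1 1)
    rw [E12_single_one, t1 k (h0 k), E12_apply] at h1
    have h2 := congrFun h1 0
    rw [Pi.single_eq_same] at h2
    exact h2.symm
  · have h0 : ∀ k, A k (Pi.single 0 1) 1 = 0 := by
      intro k
      have h1 := s3 k (Pi.single 0 1)
      have h2 : (fun _ : Fin 1 => (Pi.single 0 1 : Fin 2 → F) 1) = 0 := by
        funext i
        exact Pi.single_eq_of_ne (by decide) _
      rw [h2, map_zero] at h1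
      exact congrFun h1 0
    refine ⟨h0, Or.inl ⟨rfl, D (fun _ => 1) 0, fun w i => ?_, fun k => ⟨?_, ?_⟩⟩⟩
    · have h1 : w = w 0 • fun _ => (1 : F) := by
        funext j
        rw [Subsingleton.elim j 0]
        simp
      rw [Subsingleton.elim i 0]
      conv_lhs => rw [h1, map_smul]
      rw [Pi.smul_apply, smul_eq_mul, mul_comm]
    · have h1 := s4 k (fun _ => 1)
      rw [col_apply, col_apply, Fin.sum_univ_one, Fin.sum_univ_one, t1 k (h0 k)] at h1
      have h2 := congrFun h1 0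
      rw [Pi.single_eq_same] at h2
      exact h2.symm
    · have h1 := s3 k (Pi.single 1 1)
      simp only [Pi.single_eq_same] at h1
      exact congrFun h1 0

end unip

end Cfsg.Agent.H728.Meet2
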