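/-
helper728 (task 1919; S5760): the row `PSU_n(q)`, `n ≥ 3`, `q` odd, `p = 2`.
-/
import Mathlib
import Cfsg.Agent.H728.Meet2.PsuA
import Cfsg.Agent.LieClassical.SUBasic

/-!
# `PSU_n(q)`, `n ≥ 3`, `q` odd, `p = 2` (helper728)

* `labelsU` : the labels;
* `meetU` : `MeetIn 2` for the isometry group modulo scalars;
* `meet2_PSU` : the row.
-/

set_option autoImplicit false

namespace Cfsg.Agent.H728.Meet2

open Equiv Module Matrix Cfsg.Agent.H68.MeetB Cfsg.Agent.H749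

/-! ### Labels -/

section labels

variable {F : Type*} [Field F] {σ : F →+* F} {m ε : ℕ}

theorem labelsU {δ : F} (hδ : δ ≠ 0) (hδσ : σ δ = -δ) (h2 : (2 : F) ≠ 0) (hn : 3 ≤ 2 * m + ε) (hε : ε < 2)
    (T : Subgroup (Perm (Fin m))) (hT : IsPGroup 2 T) :
    ∃ t : Fin m → F, (∀ k, σ (t k) = -t k) ∧ ∀ π ∈ T, ∀ a d : Fin m → F, (∀ k, a k * σ (d k) = 1) →
      ((ε = 1 ∧ ∃ μ : F, ∀ k, a k = μ ∧ d k = μ) ∨ (ε = 0 ∧ ∀ k l, k ≠ l → a k = d l)) →
      (∀ k, a k * t (π.symm k) = d k * t k) → π = 1 ∧ ∃ a₀, ∀ k, a k = a₀ ∧ d k = a₀ := by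
  have hδ2 : δ ≠ -δ := by
    intro h
    have h3 : (2 : F) * δ = 0 := by linear_combination h
    exact (mul_ne_zero h2 hδ) h3
  by_cases hcase : ε = 1 ∨ 3 ≤ m
  · obtain ⟨c, hc⟩ := Cfsg.Agent.H458.M2.color (α := Fin m) T hT
    let ι : Fin 3 → F := ![0, δ, -δ]
    have hι : Function.Injective ι := by
      intro i j hij
      fin_cases i <;> fin_cases j <;> simp [ι] at hij ⊢
      all_goals first
        | exact hδ hij
        | exact hδ hij.symm
        | exact hδ2 hij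
        | exact hδ2 hij.symm
    have hισ : ∀ i, σ (ι i) = -ι i := by
      intro i
      fin_cases i
      · change σ 0 = -0
        rw [map_zero, neg_zero]
      · exact hδσ
      · change σ (-δ) = -(-δ)
        rw [map_neg, hδσ]
    refine ⟨fun k => ι (c k), fun k => hισ _, fun π hπ a d had hor ht => ?_⟩
    have key : ∃ a₀, ∀ k, a k = a₀ ∧ d k = a₀ := by
      rcases hor with ⟨-, μ, hμ⟩ | ⟨h0, h1⟩
      · exact ⟨μ, hμ⟩
      · have hm3 : 3 ≤ m := by
          rcases hcase with h3 | h3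
          · omega
          · exact h3
        have hex : ∀ j k : Fin m, ∃ l, l ≠ j ∧ l ≠ k := by
          intro j k
          have h4 : ((Finset.univ : Finset (Fin m)) \ {j, k}).Nonempty := by
            rw [← Finset.card_pos]
            have h5 := Finset.le_card_sdiff ({j, k} : Finset (Fin m)) Finset.univ
            have h6 : ({j, k} : Finset (Fin m)).card ≤ 2 := Finset.card_le_two
            rw [Finset.card_univ, Fintype.card_fin] at h5
            omega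
          obtain ⟨l, hl⟩ := h4
          simp only [Finset.mem_sdiff, Finset.mem_univ, true_and, Finset.mem_insert, Finset.mem_singleton, not_or] at hl
          exact ⟨l, hl.1, hl.2⟩
        have h3 : ∀ j k, a j = a k := by
          intro j k
          obtain ⟨l, hl1, hl2⟩ := hex j k
          rw [h1 j l hl1.symm, h1 k l hl2.symm]
        refine ⟨a ⟨0, by omega⟩, fun k => ⟨h3 _ _, ?_⟩⟩
        obtain ⟨l, hl, -⟩ := hex k k
        rw [← h1 l k hl]
        exact h3 _ _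
    refine ⟨?_, key⟩
    obtain ⟨a₀, ha₀⟩ := key
    have ha0 : ∀ k : Fin m, a₀ ≠ 0 := by
      intro k h
      have h3 := had k
      rw [(ha₀ k).1, h, zero_mul] at h3
      exact zero_ne_one h3
    have h5 := hc ⟨π⁻¹, T.inv_mem hπ⟩ (fun j => by
      have h6 := ht j
      rw [(ha₀ j).1, (ha₀ j).2] at h6
      exact hι (mul_left_cancel₀ (ha0 j) h6))
    have h6 : π⁻¹ = 1 := Equiv.ext h5
    exact inv_eq_one.1 h6
  · have hm : m = 2 := by omega
    have hε0 : ε = 0 := by omega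
    subst hm
    subst hε0
    refine ⟨![δ, 0], fun k => ?_, fun π _ a d had hor ht => ?_⟩
    · fin_cases k
      · exact hδσ
      · change σ 0 = -0
        rw [map_zero, neg_zero]
    have h1 : ∀ k l, k ≠ l → a k = d l := by
      rcases hor with ⟨h0, -⟩ | ⟨-, h1⟩
      · exact absurd h0 (by decide)
      · exact h1
    have hd : ∀ k, d k ≠ 0 := by
      intro k h
      have h3 := had k
      rw [h, map_zero, mul_zero] at h3
      exact zero_ne_one h3
    have h4 : π.symm 0 = 0 := by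
      by_contra hcon
      have h3 : π.symm 0 = 1 := by omega
      have h5 := ht 0
      rw [h3] at h5
      simp only [Matrix.cons_val_one, Matrix.cons_val_zero, mul_zero, Matrix.cons_val_fin_one] at h5
      exact (mul_ne_zero (hd 0) hδ) h5.symm
    have h5 : a 0 = d 0 := by
      have h6 := ht 0
      rw [h4] at h6
      simp only [Matrix.cons_val_zero] at h6
      exact mul_right_cancel₀ hδ h6
    have h6 : a 0 = d 1 := h1 0 1 (by decide)
    have h7 : a 1 = d 0 := h1 1 0 (by decide)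
    refine ⟨?_, a 0, fun k => ?_⟩
    · have h8 : π⁻¹ = 1 := by
        have h9 : π.symm 1 = 1 := by
          have h10 : π.symm 1 ≠ π.symm 0 := fun h => absurd (π.symm.injective h) (by decide)
          rw [h4] at h10
          omega
        refine Equiv.ext fun k => ?_
        fin_cases k
        · exact h4
        · exact h9
      exact inv_eq_one.1 h8
    · fin_cases k
      · exact ⟨rfl, h5.symm⟩
      · exact ⟨h7.trans h5.symm, h6.symm⟩

end labels

/-! ### Unipotent blocks -/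

section uu

variable {F : Type*} [Field F] {σ : F →+* F} {m ε : ℕ}

/-- the transvection block -/
def uu (t : F) : (Fin 2 → F) ≃ₗ[F] (Fin 2 → F) where
  toFun u := u + t • E12 F u
  map_add' u v := by rw [map_add, smul_add]; abel
  map_smul' a u := by rw [map_smul, smul_comm, ← smul_add]; rfl
  invFun u := u - t • E12 F u
  left_inv u := by
    change (u + t • E12 F u) - t • E12 F (u + t • E12 F u) = u
    rw [map_add, map_smul, E12_E12, smul_zero, add_zero]; abel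
  right_inv u := by
    change (u - t • E12 F u) + t • E12 F (u - t • E12 F u) = u
    rw [map_sub, map_smul, E12_E12, smul_zero, sub_zero]; abel

theorem uu_apply (t : F) (u : Fin 2 → F) : uu t u = u + t • E12 F u := rfl

theorem uu_mul (s t : F) : uu s * uu t = uu (s + t) := by
  refine LinearEquiv.ext fun u => ?_
  change uu s (uu t u) = _
  rw [uu_apply, uu_apply, uu_apply, map_add, map_smul, E12_E12, smul_zero, add_zero, add_smul]
  abel

theorem uu_zero : uu (0 : F) = 1 := by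
  refine LinearEquiv.ext fun u => ?_
  rw [uu_apply, zero_smul, add_zero]
  rfl

theorem uu_one (t : F) (u : Fin 2 → F) : uu t u 1 = u 1 := by
  rw [uu_apply, E12_apply]
  simp

theorem uu_mem {t : F} (ht : σ t = -t) : uu t ∈ Iso (hyp σ) := by
  intro u v
  unfold hyp
  rw [uu_one, uu_one, uu_apply, uu_apply, E12_apply, E12_apply]
  simp only [Pi.add_apply, Pi.smul_apply, Pi.single_eq_same, smul_eq_mul, map_add, map_mul, ht]
  ring

/-- the unipotent block diagonal maps -/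
def nU (t : Fin m → F) (ε : ℕ) : VV F m ε ≃ₗ[F] VV F m ε := bm 1 (fun k => uu (t k)) 1

theorem nU_mul (s t : Fin m → F) : nU s ε * nU t ε = nU (s + t) ε := by
  unfold nU
  rw [bm_mul, mul_one, mul_one]
  congr 1
  funext k
  exact uu_mul _ _

theorem nU_zero : nU (0 : Fin m → F) ε = 1 := by
  unfold nU
  rw [← bm_one]
  congr 1
  funext k
  exact uu_zero

theorem nU_pow (t : Fin m → F) (j : ℕ) : nU t ε ^ j = nU ((j : F) • t) ε := by
  induction j with
  | zero => rw [pow_zero, Nat.cast_zero, zero_smul, nU_zero]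
  | succ j ih => rw [pow_succ, ih, nU_mul, Nat.cast_succ, add_smul, one_smul]

theorem nU_mem {t : Fin m → F} (ht : ∀ k, σ (t k) = -t k) : nU t ε ∈ Iso (ff σ m ε) :=
  bm_mem.2 ⟨fun k => uu_mem (ht k), (Iso (stdf σ ε)).one_mem⟩

/-- the unipotent subgroup -/
def NNU (σ : F →+* F) (m ε : ℕ) : Subgroup (Iso (ff σ m ε)) where
  carrier := {g | ∃ t : Fin m → F, (∀ k, σ (t k) = -t k) ∧ (g : VV F m ε ≃ₗ[F] VV F m ε) = nU t ε}
  one_mem' := ⟨0, fun k => by simp, nU_zero.symm⟩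
  mul_mem' := by
    rintro g h ⟨s, hs, hg⟩ ⟨t, ht, hh⟩
    refine ⟨s + t, fun k => ?_, ?_⟩
    · rw [Pi.add_apply, map_add, hs, ht, neg_add]
    · rw [Subgroup.coe_mul, hg, hh, nU_mul]
  inv_mem' := by
    rintro g ⟨s, hs, hg⟩
    refine ⟨-s, fun k => ?_, ?_⟩
    · rw [Pi.neg_apply, map_neg, hs]
    · rw [Subgroup.coe_inv, hg, inv_eq_iff_mul_eq_one, nU_mul, add_neg_cancel, nU_zero]

theorem nU_comm (c : F) (t : Fin m → F) (v : VV F m ε) :
    nU t ε (v + NU c m ε v) = nU t ε v + NU c m ε (nU t ε v) := by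
  rw [map_add]
  congr 1
  have h1 : ∀ j, (nU t ε v).1 j 1 = v.1 j 1 := fun j => uu_one _ _
  have h2 : (nU t ε v).2 = v.2 := rfl
  refine Prod.ext (funext fun k => ?_) (funext fun i => ?_)
  · rw [NU_fst, h2, Finset.sum_congr rfl fun j _ => h1 j]
    change uu (t k) ((NU c m ε v).1 k) = _
    rw [uu_apply, E12_apply, NU_fst_one, Pi.single_zero, smul_zero, add_zero, NU_fst]
  · change (NU c m ε v).2 i = _
    rw [NU_snd, NU_snd, Finset.sum_congr rfl fun j _ => h1 j]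

/-- the scalars -/
def ZU (σ : F →+* F) (m ε : ℕ) : Subgroup (Iso (ff σ m ε)) where
  carrier := {g | ∃ r : F, ∀ v, (g : VV F m ε ≃ₗ[F] VV F m ε) v = r • v}
  one_mem' := ⟨1, fun v => (one_smul F v).symm⟩
  mul_mem' := by
    rintro g h ⟨r, hr⟩ ⟨s, hs⟩
    refine ⟨r * s, fun v => ?_⟩
    change (g : VV F m ε ≃ₗ[F] VV F m ε) ((h : VV F m ε ≃ₗ[F] VV F m ε) v) = _
    rw [hs, hr, mul_smul]
  inv_mem' := by
    rintro g ⟨r, hr⟩
    refine ⟨r⁻¹, fun v => ?_⟩
    have h1 : (g : VV F m ε ≃ₗ[F] VV F m ε) ((g : VV F m ε ≃ₗ[F] VV F m ε)⁻¹ v) = v :=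
      (g : VV F m ε ≃ₗ[F] VV F m ε).apply_symm_apply v
    change (g : VV F m ε ≃ₗ[F] VV F m ε)⁻¹ v = _
    rw [hr] at h1
    by_cases h0 : r = 0
    · rw [h0, zero_smul] at h1
      rw [← h1, map_zero, smul_zero]
    · conv_rhs => rw [← h1]
      rw [inv_smul_smul₀ h0]

instance ZU_normal : (ZU σ m ε).Normal := ⟨by
  rintro g ⟨r, hr⟩ h
  refine ⟨r, fun v => ?_⟩
  change (h : VV F m ε ≃ₗ[F] VV F m ε) ((g : VV F m ε ≃ₗ[F] VV F m ε) ((h : VV F m ε ≃ₗ[F] VV F m ε).symm v)) = _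
  rw [hr, map_smul, LinearEquiv.apply_symm_apply]⟩

theorem ZU_le (hn : 3 ≤ 2 * m + ε) : ZU σ m ε ≤ HU σ m ε := by
  rintro g ⟨r, hr⟩
  have hr0 : r ≠ 0 := by
    rintro rfl
    have hne : Nontrivial (VV F m ε) := by
      apply Module.nontrivial_of_finrank_pos (R := F)
      rw [finrank_VV]
      omega
    obtain ⟨v, hv⟩ := exists_ne (0 : VV F m ε)
    have h3 := hr v
    rw [zero_smul] at h3
    exact hv ((g : VV F m ε ≃ₗ[F] VV F m ε).map_eq_zero_iff.1 h3)
  exact mem_HU.2 ⟨1, fun _ => LinearEquiv.smulOfNeZero F _ r hr0, LinearEquiv.smulOfNeZero F _ r hr0,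
    LinearEquiv.ext fun v => hr v⟩

end uu

/-! ### Triangular blocks -/

section tri

variable {F : Type*} [Field F] {σ : F →+* F} {A : (Fin 2 → F) ≃ₗ[F] (Fin 2 → F)}

theorem vec2 (u : Fin 2 → F) : u = u 0 • (Pi.single 0 1 : Fin 2 → F) + u 1 • (Pi.single 1 1 : Fin 2 → F) := by
  funext i
  fin_cases i <;> simp

theorem tri_one (h : A (Pi.single 0 1) 1 = 0) (u : Fin 2 → F) : A u 1 = u 1 * A (Pi.single 1 1) 1 := by
  conv_lhs => rw [vec2 u]
  rw [map_add, map_smul, map_smul, Pi.add_apply, Pi.smul_apply, Pi.smul_apply, h, smul_zero, zero_add, smul_eq_mul]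

theorem tri_single (h : A (Pi.single 0 1) 1 = 0) (s : F) :
    A (Pi.single 0 s) = Pi.single 0 (s * A (Pi.single 0 1) 0) := by
  have h1 : (Pi.single 0 s : Fin 2 → F) = s • Pi.single 0 1 := by
    rw [← Pi.single_smul', smul_eq_mul, mul_one]
  rw [h1, map_smul]
  funext i
  fin_cases i
  · change s • A (Pi.single 0 1) 0 = (Pi.single 0 (s * A (Pi.single 0 1) 0) : Fin 2 → F) 0
    rw [Pi.single_eq_same, smul_eq_mul]
  · change s • A (Pi.single 0 1) 1 = (Pi.single 0 (s * A (Pi.single 0 1) 0) : Fin 2 → F) 1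
    rw [h, Pi.single_eq_of_ne (by decide), smul_zero]

theorem tri_hyp (hA : A ∈ Iso (hyp σ)) (h : A (Pi.single 0 1) 1 = 0) :
    A (Pi.single 0 1) 0 * σ (A (Pi.single 1 1) 1) = 1 := by
  have h1 := hA (Pi.single 0 1) (Pi.single 1 1)
  unfold hyp at h1
  rw [h, zero_mul, add_zero] at h1
  simpa using h1

/-- the core of `scal_of` -/
theorem blk_scal (h2 : (2 : F) ≠ 0) (hA : ∀ a, E12 F (A a) = A (E12 F a)) {k : ℕ} (hk : A ^ 2 ^ k = 1) (u : Fin 2 → F) :
    A u = A (Pi.single 0 1) 0 • u := by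
  obtain ⟨a, ha⟩ := scal_of (I := Unit) (ε := 0) h2 (by norm_num) hA (D := 1) (fun w => by
      rw [show w = 0 from Subsingleton.elim _ _, map_zero, map_zero, map_zero]) (k := k) (by
    rw [bm_pow, hk, one_pow, ← bm_one]
    rfl)
  have h1 : ∀ u, A u = a • u := fun u => congrFun (congrArg Prod.fst (ha (fun _ => u, 0))) ()
  have h3 : A (Pi.single 0 1) 0 = a := by
    rw [h1]
    simp
  rw [h3, h1]

theorem comm_E12 (h : A (Pi.single 0 1) 1 = 0) (h1 : A (Pi.single 0 1) 0 = A (Pi.single 1 1) 1) (u : Fin 2 → F) :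
    E12 F (A u) = A (E12 F u) := by
  rw [E12_apply, E12_apply, tri_single h, tri_one h, h1]

theorem tri_uu (hA : A ∈ Iso (hyp σ)) (hσ2 : ∀ a, σ (σ a) = a) (h : A (Pi.single 0 1) 1 = 0) (t : F) :
    A * uu t = uu (A (Pi.single 0 1) 0 * σ (A (Pi.single 0 1) 0) * t) * A := by
  have h1 := tri_hyp hA h
  have h2 : σ (A (Pi.single 0 1) 0) * A (Pi.single 1 1) 1 = 1 := by
    have h3 := congrArg σ h1
    rwa [map_mul, hσ2, map_one] at h3
  refine LinearEquiv.ext fun u => ?_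
  change A (uu t u) = uu _ (A u)
  rw [uu_apply, uu_apply, map_add, map_smul, E12_apply, E12_apply, tri_single h, tri_one h,
    ← Pi.single_smul', ← Pi.single_smul']
  congr 2
  simp only [smul_eq_mul]
  linear_combination (-(t * u 1 * A (Pi.single 0 1) 0)) * h2

end tri

/-! ### The isometry group modulo scalars -/

section meet

variable {F : Type*} [Field F] [Fintype F] {σ : F →+* F} {m ε q : ℕ}

omit [Fintype F] in
theorem bm_pow' {I W U : Type*} [AddCommGroup W] [Module F W] [AddCommGroup U] [Module F U] (π : Perm I)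
    (A : I → (W ≃ₗ[F] W)) (D : U ≃ₗ[F] U) (r : ℕ) : ∃ B E, bm π A D ^ r = bm (π ^ r) B E := by
  induction r with
  | zero => exact ⟨1, 1, by rw [pow_zero, pow_zero]; exact bm_one.symm⟩
  | succ r ih =>
    obtain ⟨B, E, hB⟩ := ih
    exact ⟨_, _, by rw [pow_succ, hB, bm_mul, ← pow_succ]⟩

omit [Fintype F] in
theorem bm_pow_one {I W U : Type*} [AddCommGroup W] [Module F W] [AddCommGroup U] [Module F U]
    (A : I → (W ≃ₗ[F] W)) (D : U ≃ₗ[F] U) (r : ℕ) : bm 1 A D ^ r = bm 1 (fun k => A k ^ r) (D ^ r) := by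
  induction r with
  | zero =>
    rw [pow_zero]
    exact bm_one.symm
  | succ r ih =>
    rw [pow_succ, ih, bm_mul, mul_one]
    rfl

omit [Fintype F] in
/-- the permutations -/
def TU (R : Subgroup (Iso (ff σ m ε))) : Subgroup (Perm (Fin m)) where
  carrier := {π | ∃ A D, ∃ g ∈ R, (g : VV F m ε ≃ₗ[F] VV F m ε) = bm π A D}
  one_mem' := ⟨1, 1, 1, R.one_mem, bm_one.symm⟩
  mul_mem' := by
    rintro π τ ⟨A, D, g, hg, h1⟩ ⟨A', D', g', hg', h1'⟩
    exact ⟨_, _, g * g', R.mul_mem hg hg', by rw [Subgroup.coe_mul, h1, h1', bm_mul]⟩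
  inv_mem' := by
    rintro π ⟨A, D, g, hg, h1⟩
    refine ⟨fun k => (A (π k))⁻¹, D⁻¹, g⁻¹, R.inv_mem hg, ?_⟩
    rw [Subgroup.coe_inv, h1, inv_eq_iff_mul_eq_one, bm_mul, ← bm_one]
    congr 1
    · simp
    · funext k
      simp
    · simp

omit [Fintype F] in
theorem TU_isPGroup {R : Subgroup (Iso (ff σ m ε))} (hR : IsPGroup 2 R) : IsPGroup 2 (TU R) := by
  rintro ⟨π, A, D, g, hg, h1⟩
  obtain ⟨k, hk⟩ := hR ⟨g, hg⟩
  refine ⟨k, Subtype.ext ?_⟩
  have h2 : (g : VV F m ε ≃ₗ[F] VV F m ε) ^ 2 ^ k = 1 :=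
    congrArg Subtype.val (congrArg Subtype.val hk)
  obtain ⟨B, E, hB⟩ := bm_pow' π A D (2 ^ k)
  rw [h1, hB, ← bm_one] at h2
  exact (bm_injective h2).1

omit [Fintype F] in
theorem exists_delta (hne : σ ≠ RingHom.id F) (hσ2 : ∀ a, σ (σ a) = a) : ∃ δ : F, δ ≠ 0 ∧ σ δ = -δ := by
  obtain ⟨a, ha⟩ : ∃ a, σ a ≠ a := by
    by_contra hcon
    push Not at hcon
    exact hne (RingHom.ext hcon)
  refine ⟨a - σ a, sub_ne_zero.2 ha.symm, ?_⟩
  rw [map_sub, hσ2]
  ring

omit [Fintype F] in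
theorem exists_c (h2 : (2 : F) ≠ 0) (hne : σ ≠ RingHom.id F) (hσ2 : ∀ a, σ (σ a) = a) (hε : ε < 2) :
    ∃ c : F, c ≠ 0 ∧ c + σ c + ε = 0 := by
  have hε' : ε = 0 ∨ ε = 1 := by omega
  rcases hε' with rfl | rfl
  · obtain ⟨δ, h1, h3⟩ := exists_delta hne hσ2
    refine ⟨δ, h1, ?_⟩
    rw [h3, Nat.cast_zero]
    ring
  · refine ⟨-(2⁻¹), neg_ne_zero.2 (inv_ne_zero h2), ?_⟩
    rw [map_neg, map_inv₀, map_ofNat, Nat.cast_one]
    field_simp
    norm_num

/-- **The isometry group modulo scalars.** -/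
theorem meetU (hF : Fintype.card F = q ^ 2) (hq : Odd q) (hσ : ∀ x, σ x = x ^ q) (hn : 3 ≤ 2 * m + ε) (hε : ε < 2) :
    MeetIn 2 (Iso (ff σ m ε) ⧸ ZU σ m ε) := by
  have h2' : Fact (Nat.Prime 2) := ⟨Nat.prime_two⟩
  obtain ⟨p, hch⟩ := CharP.exists F
  have hp : Fact p.Prime := ⟨CharP.char_is_prime F p⟩
  have h2 : (2 : F) ≠ 0 := by
    intro h0
    have h3 : ((2 : ℕ) : F) = 0 := by exact_mod_cast h0
    have h4 := (CharP.cast_eq_zero_iff F p 2).1 h3
    have h5 : p = 2 := (Nat.prime_dvd_prime_iff_eq hp.out Nat.prime_two).1 h4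
    subst h5
    obtain ⟨n, -, hn⟩ := FiniteField.card F 2
    have h7 : Odd (2 ^ (n : ℕ)) := by
      rw [← hn, hF]
      exact hq.pow
    have h6 : (n : ℕ) ≠ 0 := n.ne_zero
    rw [Nat.odd_pow_iff h6] at h7
    exact absurd h7 (by decide)
  have hq1 : 1 < q := by
    have := ClassicalGeometry.GUBasic.two_le hF
    omega
  have hne := sigma_ne hF hσ
  have hσ2 := sigma_sigma hF hσ
  have hfin : Finite (Iso (ff σ m ε)) := Nat.finite_of_card_ne_zero (by
    rw [card_iso hF hσ (ff_hermF hσ2) (finrank_VV m ε)]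
    exact gu_ne hq1 _)
  have hnt : Nontrivial (VV F m ε) := by
    apply Module.nontrivial_of_finrank_pos (R := F)
    rw [finrank_VV]
    omega
  obtain ⟨c, hc, hcσ⟩ := exists_c (F := F) h2 hne hσ2 hε
  obtain ⟨δ, hδ, hδσ⟩ := exists_delta hne hσ2
  obtain ⟨x, hx, -⟩ := exists_unip (p := p) (NU_nilp (c := c) (m := m) (ε := ε))
  have hxm : x ∈ Iso (ff σ m ε) := NU_mem hx hcσ
  -- the relations
  have hrel : ∀ y : Iso (ff σ m ε), (⟨x, hxm⟩ * y * ⟨x, hxm⟩⁻¹ : Iso (ff σ m ε)) ∈ HU σ m ε →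
      ∀ π A D, (y : VV F m ε ≃ₗ[F] VV F m ε) = bm π A D →
      (∀ k, A k (Pi.single 0 1) 1 = 0) ∧
      ((ε = 1 ∧ ∃ μ : F, (∀ w i, D w i = μ * w i) ∧ ∀ k, A k (Pi.single 0 1) 0 = μ ∧ A k (Pi.single 1 1) 1 = μ) ∨
        (ε = 0 ∧ ∀ k l, k ≠ l → A k (Pi.single 0 1) 0 = A l (Pi.single 1 1) 1)) := by
    rintro y hxy π A D hy
    obtain ⟨τ, A', D', h1⟩ := mem_HU.1 hxy
    have h3 : x * (y : VV F m ε ≃ₗ[F] VV F m ε) * x⁻¹ = bm τ A' D' := h1
    rw [mul_inv_eq_iff_eq_mul, hy] at h3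
    refine diagU hc hn hε (π := π) (τ := τ) (A := A) (A' := A') (D := D) (D' := D') fun v => ?_
    rw [← hx, ← hx]
    exact congrArg (fun g : VV F m ε ≃ₗ[F] VV F m ε => g v) h3
  refine of_pairZ (p := 2) (Z := ZU σ m ε) (H := HU σ m ε) (N := NNU σ m ε) (not_two_dvd_U hF hq hσ hε) (ZU_le hn)
    ⟨x, hxm⟩ ?_ ?_ ?_ ?_
  · rintro n ⟨t, ht, hnt⟩
    have h1 : n ∈ HU σ m ε := mem_HU.2 ⟨_, _, _, hnt⟩
    refine ⟨h1, ?_⟩
    have h3 : (⟨x, hxm⟩ * n * ⟨x, hxm⟩⁻¹ : Iso (ff σ m ε)) = n := by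
      rw [mul_inv_eq_iff_eq_mul]
      apply Subtype.ext
      refine LinearEquiv.ext fun v => ?_
      change x ((n : VV F m ε ≃ₗ[F] VV F m ε) v) = (n : VV F m ε ≃ₗ[F] VV F m ε) (x v)
      rw [hx, hx, hnt, nU_comm]
    rw [h3]
    exact h1
  · rintro n ⟨t, ht, hnt⟩ y hy hxy
    obtain ⟨π, A, D, hyA⟩ := mem_HU.1 hy
    obtain ⟨h0, -⟩ := hrel y hxy π A D hyA
    have hA := (bm_mem.1 (hyA ▸ y.2)).1
    refine ⟨fun k => A k (Pi.single 0 1) 0 * σ (A k (Pi.single 0 1) 0) * t (π.symm k), fun k => ?_, ?_⟩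
    · rw [map_mul, map_mul, hσ2, ht]
      ring
    · change (y : VV F m ε ≃ₗ[F] VV F m ε) * n * (y : VV F m ε ≃ₗ[F] VV F m ε)⁻¹ = _
      rw [mul_inv_eq_iff_eq_mul, hyA, hnt]
      unfold nU
      rw [bm_mul, bm_mul, one_mul, mul_one, mul_one, one_mul]
      congr 1
      funext k
      exact tri_uu (hA k) hσ2 (h0 k) _
  · rintro n ⟨t, ht, hnt⟩ k ⟨r, hr⟩
    have h1 : ∀ v, nU (((2 ^ k : ℕ) : F) • t) ε v = r • v := by
      intro v
      rw [← hr, ← nU_pow, ← hnt]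
      rfl
    have h3 : t = 0 := by
      funext i
      have e1 := congrFun (congrFun (congrArg Prod.fst (h1 (fun _ => Pi.single 1 1, 0))) i) 0
      change uu ((((2 ^ k : ℕ) : F) • t) i) (Pi.single 1 1) 0 = r • (Pi.single 1 1 : Fin 2 → F) 0 at e1
      rw [uu_apply, E12_single_one] at e1
      simp only [Pi.add_apply, Pi.smul_apply, Pi.single_eq_same, smul_eq_mul, mul_one] at e1
      have e2 : (Pi.single 1 1 : Fin 2 → F) 0 = 0 := Pi.single_eq_of_ne (by decide) _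
      rw [e2, zero_add, mul_zero] at e1
      rcases mul_eq_zero.1 e1 with h4 | h4
      · exfalso
        rw [Nat.cast_pow, Nat.cast_ofNat] at h4
        exact pow_ne_zero k h2 h4
      · exact h4
    apply Subtype.ext
    rw [hnt, h3, nU_zero]
    rfl
  · intro R hR hRD
    obtain ⟨t, ht, hlab⟩ := labelsU (σ := σ) hδ hδσ h2 hn hε (TU R) (TU_isPGroup hR)
    refine ⟨⟨nU t ε, nU_mem ht⟩, ⟨t, ht, rfl⟩, fun y hy huy => ?_⟩
    obtain ⟨hy1, hy2⟩ := hRD y hy
    obtain ⟨π, A, D, hyA⟩ := mem_HU.1 hy1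
    obtain ⟨h0, hor⟩ := hrel y hy2 π A D hyA
    have hA := (bm_mem.1 (hyA ▸ y.2)).1
    have hcom : ∀ k, uu (t k) * A k = A k * uu (t (π.symm k)) := by
      have h1 : nU t ε * (y : VV F m ε ≃ₗ[F] VV F m ε) = (y : VV F m ε ≃ₗ[F] VV F m ε) * nU t ε :=
        congrArg Subtype.val huy
      rw [hyA] at h1
      unfold nU at h1
      rw [bm_mul, bm_mul, one_mul, mul_one] at h1
      exact fun k => congrFun (bm_injective h1).2.1 k
    obtain ⟨h1, a₀, ha₀⟩ := hlab π ⟨A, D, y, hy, hyA⟩ (fun k => A k (Pi.single 0 1) 0)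
      (fun k => A k (Pi.single 1 1) 1) (fun k => tri_hyp (hA k) (h0 k)) (by
        rcases hor with ⟨e1, μ, -, e2⟩ | h
        · exact Or.inl ⟨e1, μ, e2⟩
        · exact Or.inr h) (fun k => by
        have h3 := congrFun (congrArg (fun g : (Fin 2 → F) ≃ₗ[F] (Fin 2 → F) => g (Pi.single 1 1)) (hcom k)) 0
        change uu (t k) (A k (Pi.single 1 1)) 0 = A k (uu (t (π.symm k)) (Pi.single 1 1)) 0 at h3
        rw [uu_apply, uu_apply, E12_single_one, map_add, map_smul, E12_apply] at h3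
        simp only [Pi.add_apply, Pi.smul_apply, Pi.single_eq_same, smul_eq_mul] at h3
        linear_combination -h3)
    subst h1
    obtain ⟨k, hk⟩ := hR ⟨y, hy⟩
    have h2k : (y : VV F m ε ≃ₗ[F] VV F m ε) ^ 2 ^ k = 1 := congrArg Subtype.val (congrArg Subtype.val hk)
    rw [hyA, bm_pow_one, ← bm_one] at h2k
    have h3 := (bm_injective h2k).2.1
    refine ⟨a₀, fun v => ?_⟩
    rw [hyA]
    refine Prod.ext (funext fun i => ?_) (funext fun i => ?_)
    · change A i (v.1 i) = a₀ • v.1 i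
      rw [blk_scal h2 (comm_E12 (h0 i) ((ha₀ i).1.trans (ha₀ i).2.symm)) (congrFun h3 i), (ha₀ i).1]
    · change D v.2 i = a₀ * v.2 i
      rcases hor with ⟨e1, μ, e2, e3⟩ | ⟨e1, -⟩
      · have hm : 0 < m := by omega
        rw [e2, ← (e3 ⟨0, hm⟩).1, (ha₀ _).1]
      · subst e1
        exact i.elim0

end meet

/-! ### The row -/

/-- **The row `PSU_n(q)`, `n ≥ 3`, `q` odd, of S5760 at `p = 2`.** -/
theorem meet2_PSU {n q : ℕ} {F : Type} [Field F] [Fintype F] (hF : Fintype.card F = q ^ 2) (hq : Odd q) (hn : 3 ≤ n) :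
    MeetIn 2 (Cfsg.PSU n F q) := by
  have h2' : Fact (Nat.Prime 2) := ⟨Nat.prime_two⟩
  obtain ⟨m, ε, rfl, hε⟩ : ∃ m ε, n = 2 * m + ε ∧ ε < 2 := ⟨n / 2, n % 2, by omega, by omega⟩
  obtain ⟨σ, hσ⟩ := ClassicalGeometry.GUBasic.exists_powHom hF
  have hσ2 := sigma_sigma hF hσ
  have hq1 : 1 < q := by
    have := ClassicalGeometry.GUBasic.two_le hF
    omega
  have hfin : Finite (Iso (ff σ m ε)) := Nat.finite_of_card_ne_zero (by
    rw [card_iso hF hσ (ff_hermF hσ2) (finrank_VV m ε)]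
    exact gu_ne hq1 _)
  obtain ⟨j, hj⟩ := (ff_hermF (m := m) (ε := ε) hσ2).exists_iso (sigma_ne hF hσ) hσ2 hσ (finrank_VV m ε)
  have hS : SimF j (hermForm (2 * m + ε) F q) (ff σ m ε) 1 := ⟨one_ne_zero, fun x y => by rw [one_mul]; exact hj x y⟩
  let e := slEquiv hS
  let φ : Cfsg.SU (2 * m + ε) F q →* Iso (ff σ m ε) := (detKer (ff σ m ε)).subtype.comp e.toMonoidHom
  have hφ : ∀ s v, (φ s : VV F m ε ≃ₗ[F] VV F m ε) v =
      j ((s.1 : Matrix (Fin (2 * m + ε)) (Fin (2 * m + ε)) F) *ᵥ j.symm v) := fun s v => rfl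
  have hφi : Function.Injective φ := (Subtype.val_injective).comp e.injective
  have hr : φ.range = detKer (ff σ m ε) := by
    ext g
    constructor
    · rintro ⟨s, rfl⟩
      exact (e s).2
    · intro hg
      obtain ⟨s, hs⟩ := e.surjective ⟨g, hg⟩
      exact ⟨s, congrArg Subtype.val hs⟩
  have hdn : (detKer (ff σ m ε)).Normal := by
    unfold detKer
    infer_instance
  let f : Cfsg.SU (2 * m + ε) F q →* Iso (ff σ m ε) ⧸ ZU σ m ε := (QuotientGroup.mk' (ZU σ m ε)).comp φ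
  refine MeetIn.of_ker (meetU hF hq hσ hn hε) f ?_ ?_
  · have h1 : f.range = (detKer (ff σ m ε)).map (QuotientGroup.mk' (ZU σ m ε)) := by
      rw [← hr]
      exact MonoidHom.range_comp _ _
    rw [h1]
    exact hdn.map _ (QuotientGroup.mk'_surjective _)
  · ext s
    rw [MonoidHom.mem_ker]
    have h1 : f s = 1 ↔ φ s ∈ ZU σ m ε := QuotientGroup.eq_one_iff _
    rw [h1]
    constructor
    · rintro ⟨r, hr⟩
      rw [Subgroup.mem_center_iff]
      intro g
      apply hφi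
      rw [map_mul, map_mul]
      apply Subtype.ext
      refine LinearEquiv.ext fun v => ?_
      change (φ g : VV F m ε ≃ₗ[F] VV F m ε) ((φ s : VV F m ε ≃ₗ[F] VV F m ε) v) =
        (φ s : VV F m ε ≃ₗ[F] VV F m ε) ((φ g : VV F m ε ≃ₗ[F] VV F m ε) v)
      rw [hr, hr, map_smul]
    · intro hs
      obtain ⟨c, h3, h4, rfl⟩ := (Cfsg.Agent.LieClassical.SUBasic.mem_center_SU_iff hF hn s).1 hs
      refine ⟨c, fun v => ?_⟩
      rw [hφ, Cfsg.Agent.LieClassical.SUBasic.coe_suScalar, Matrix.diagonal_const_mulVec, map_smul,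
        LinearEquiv.apply_symm_apply]

end Cfsg.Agent.H728.Meet2
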